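import Mathlib
import Cfsg.Prelude.Def_Involutions
import Cfsg.Agent.H91.PguCent
import Cfsg.Agent.Lib.KleinGen
import Cfsg.Agent.Lib.Cores
import Cfsg.Agent.StrongEmb.TwoRank

/-!
# Groups in which the centralisers of involutions have the property `CentProp`

If a finite group `G` of even order without normal Sylow 2-subgroup has centralisers of involutions as in
`PGU(3, q)` then `O(G) = 1` and the normaliser of a Sylow 2-subgroup is strongly embedded.
-/

set_option autoImplicit false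

namespace Cfsg.Agent.H91.Pgu

open Cfsg Subgroup

variable {G : Type*} [Group G] {S : Type*} [Group S]

/-- the hypothesis -/
def CentHyp (G S : Type*) [Group G] [Group S] : Prop :=
  ∀ x : G, orderOf x = 2 → CentProp ↥(centralizer ({x} : Set G)) S

theorem CentHyp.comm (hC : CentHyp G S) {x y g : G} (hx : orderOf x = 2) (hy : orderOf y = 2) (hxy : x * y = y * x)
    (hg : g * x = x * g) : g * y = y * g := by
  have h1 := (hC x hx).comm ⟨y, mem_centralizer_singleton_iff.2 hxy.symm⟩
    ⟨g, mem_centralizer_singleton_iff.2 hg⟩ (by rw [Subgroup.orderOf_mk, hy])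
  exact (congrArg Subtype.val h1).symm

/-- commuting involutions have the same centraliser -/
theorem CentHyp.centralizer_eq (hC : CentHyp G S) {x y : G} (hx : orderOf x = 2) (hy : orderOf y = 2)
    (hxy : x * y = y * x) : centralizer ({x} : Set G) = centralizer ({y} : Set G) := by
  ext g
  rw [mem_centralizer_singleton_iff, mem_centralizer_singleton_iff]
  exact ⟨fun h => hC.comm hx hy hxy h, fun h => hC.comm hy hx hxy.symm h⟩

/-- the 2-elements of the centraliser of an involution -/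
theorem CentHyp.exists_Q [Finite G] (hC : CentHyp G S) {x : G} (hx : orderOf x = 2) :
    ∃ Q : Subgroup G, (∀ g, g ∈ Q ↔ g * x = x * g ∧ ∃ k : ℕ, g ^ 2 ^ k = 1) ∧ IsPGroup 2 Q ∧ Nonempty (Q ≃* S) := by
  obtain ⟨Q, hn, h2, hodd, ⟨e⟩⟩ := (hC x hx).syl
  refine ⟨Q.map (centralizer ({x} : Set G)).subtype, fun g => ?_, h2.map _,
    ⟨(Q.equivMapOfInjective _ (centralizer ({x} : Set G)).subtype_injective).symm.trans e⟩⟩
  constructor
  · rintro ⟨a, ha, rfl⟩
    refine ⟨mem_centralizer_singleton_iff.1 a.2, ?_⟩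
    obtain ⟨k, hk⟩ := h2 ⟨a, ha⟩
    have h3 := congrArg Subtype.val hk
    exact ⟨k, congrArg Subtype.val h3⟩
  · rintro ⟨h1, k, hk⟩
    refine ⟨⟨g, mem_centralizer_singleton_iff.2 h1⟩, ?_, rfl⟩
    set a : centralizer ({x} : Set G) := ⟨g, mem_centralizer_singleton_iff.2 h1⟩ with ha
    have hak : a ^ 2 ^ k = 1 := Subtype.ext hk
    change a ∈ Q
    rw [← QuotientGroup.eq_one_iff, ← orderOf_eq_one_iff]
    have h3 : orderOf (a : centralizer ({x} : Set G) ⧸ Q) ∣ 2 ^ k := by
      apply orderOf_dvd_of_pow_eq_one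
      rw [← QuotientGroup.mk_pow, hak, QuotientGroup.mk_one]
    have h4 : orderOf (a : centralizer ({x} : Set G) ⧸ Q) ∣ Q.index := orderOf_dvd_natCard _
    have h5 : Nat.Coprime (2 ^ k) Q.index := Nat.Coprime.pow_left k (Nat.coprime_two_left.mpr hodd)
    exact Nat.Coprime.eq_one_of_dvd (h5.coprime_dvd_left h3) h4

/-- a Sylow 2-subgroup containing an involution consists of the 2-elements of its centraliser -/
theorem CentHyp.mem_sylow_iff [Finite G] (hC : CentHyp G S) (P : Sylow 2 G) {x : G} (hxP : x ∈ P)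
    (hx : orderOf x = 2) {g : G} : g ∈ P ↔ g * x = x * g ∧ ∃ k : ℕ, g ^ 2 ^ k = 1 := by
  have : Fact (Nat.Prime 2) := ⟨Nat.prime_two⟩
  -- a central involution of `P`
  obtain ⟨z, hz2, hzP, hzc⟩ : ∃ z : G, orderOf z = 2 ∧ z ∈ P ∧ ∀ y ∈ P, y * z = z * y := by
    have hnt : Nontrivial P := by
      refine ⟨⟨x, hxP⟩, 1, fun h => ?_⟩
      have h1 : x = 1 := congrArg Subtype.val h
      rw [h1, orderOf_one] at hx; omega
    have h1 := P.isPGroup'.center_nontrivial
    have h2 : IsPGroup 2 (center P) := P.isPGroup'.to_subgroup _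
    obtain ⟨m, hm0, hm⟩ := h2.nontrivial_iff_card.1 h1
    obtain ⟨z, hz⟩ := exists_prime_orderOf_dvd_card' 2 (G := center P)
      (by rw [hm]; exact dvd_pow_self 2 (by omega))
    refine ⟨((z : P) : G), ?_, (z : P).2, fun y hy => ?_⟩
    · rw [Subgroup.orderOf_coe, Subgroup.orderOf_coe, hz]
    · have h3 := Subgroup.mem_center_iff.1 z.2 ⟨y, hy⟩
      exact congrArg Subtype.val h3
  have hxz : x * z = z * x := hzc x hxP
  have hPle : ∀ y ∈ P, y * x = x * y := fun y hy => hC.comm hz2 hx hxz.symm (hzc y hy)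
  obtain ⟨Q, hQ, hQ2, -⟩ := hC.exists_Q hx
  have hPQ : (P : Subgroup G) ≤ Q := by
    intro y hy
    refine (hQ y).2 ⟨hPle y hy, ?_⟩
    obtain ⟨k, hk⟩ := P.isPGroup' ⟨y, hy⟩
    exact ⟨k, congrArg Subtype.val hk⟩
  have h1 : Q = P := P.is_maximal' hQ2 hPQ
  rw [← hQ g, h1]
  exact Iff.rfl

/-- Sylow 2-subgroups are isomorphic to `S` -/
theorem CentHyp.sylow_equiv [Finite G] (hC : CentHyp G S) (P : Sylow 2 G) {x : G}
    (hx : orderOf x = 2) : Nonempty ((P : Subgroup G) ≃* S) := by
  have : Fact (Nat.Prime 2) := ⟨Nat.prime_two⟩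
  obtain ⟨R, hR⟩ := (IsPGroup.of_card (p := 2) (G := Subgroup.zpowers x) (n := 1)
    (by rw [Nat.card_zpowers, hx, pow_one])).exists_le_sylow
  have hxR : x ∈ R := hR (mem_zpowers x)
  obtain ⟨Q, hQ, hQ2, ⟨e⟩⟩ := hC.exists_Q hx
  have h1 : (R : Subgroup G) = Q := by
    ext g
    rw [hQ g]
    exact hC.mem_sylow_iff R hxR hx
  exact ⟨(P.equiv R).trans ((MulEquiv.subgroupCongr h1).trans e)⟩

/-- `O(G) = 1` -/
theorem CentHyp.core_eq_bot [Finite G] (hC : CentHyp G S) {x y : G} (hx : orderOf x = 2) (hy : orderOf y = 2)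
    (hne : x ≠ y) (hxy : x * y = y * x) : pPrimeCore 2 G = ⊥ := by
  have hodd : Odd (Nat.card (pPrimeCore 2 G)) :=
    Nat.coprime_two_right.mp (Cfsg.Agent.Lib.Cores.pPrimeCore_coprime 2)
  have hxx : x * x = 1 := by have := pow_orderOf_eq_one x; rwa [hx, pow_two] at this
  have hyy : y * y = 1 := by have := pow_orderOf_eq_one y; rwa [hy, pow_two] at this
  have hxy2 : orderOf (x * y) = 2 := by
    apply orderOf_eq_prime
    · rw [pow_two]
      calc x * y * (x * y) = x * (y * x) * y := by group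
        _ = (x * x) * (y * y) := by rw [← hxy]; group
        _ = 1 := by rw [hxx, hyy, one_mul]
    · intro h
      apply hne
      calc x = x * (y * y) := by rw [hyy, mul_one]
        _ = (x * y) * y := by group
        _ = y := by rw [h, one_mul]
  have hn := Cfsg.Agent.Lib.Cores.pPrimeCore_normal (G := G) 2
  have hle : pPrimeCore 2 G ≤ centralizer ({x} : Set G) := by
    apply Cfsg.Agent.Lib.KleinGen.le_of_klein _ _ hodd x y hxx hyy hxy (fun h hh => hn.conj_mem h hh x)
      (fun h hh => hn.conj_mem h hh y) inf_le_right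
    · rw [hC.centralizer_eq hx hy hxy]; exact inf_le_right
    · rw [hC.centralizer_eq hx hxy2 (by
        calc x * (x * y) = x * (y * x) := by rw [hxy]
          _ = x * y * x := by group)]
      exact inf_le_right
  have h1 := (hC x hx).odd ((pPrimeCore 2 G).subgroupOf (centralizer ({x} : Set G))) (hn.subgroupOf _) (by
    rw [Nat.card_congr (subgroupOfEquivOfLe hle).toEquiv]; exact hodd)
  rw [subgroupOf_eq_bot] at h1
  rw [eq_bot_iff]
  exact fun g hg => disjoint_def.1 h1 hg (hle hg)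

/-- **The normaliser of a Sylow 2-subgroup is strongly embedded.** -/
theorem CentHyp.stronglyEmbedded [Finite G] (hC : CentHyp G S) (P : Sylow 2 G) {x : G} (hxP : x ∈ P)
    (hx : orderOf x = 2) (hP : ¬ (P : Subgroup G).Normal) :
    IsStronglyEmbedded (normalizer (P : Set G)) := by
  have : Fact (Nat.Prime 2) := ⟨Nat.prime_two⟩
  have hinv : ∀ t : G, orderOf t = 2 → t ∈ normalizer (P : Set G) → t ∈ P := by
    intro t ht htn
    have h1 : IsPGroup 2 (zpowers t) := IsPGroup.of_card (n := 1) (by rw [Nat.card_zpowers, ht, pow_one])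
    have h2 : t ∈ zpowers t ⊓ normalizer (P : Set G) := ⟨mem_zpowers t, htn⟩
    rw [h1.inf_normalizer_sylow P] at h2
    exact h2.2
  refine ⟨?_, ?_, ?_⟩
  · intro h
    exact hP (normalizer_eq_top_iff.1 h)
  · have hxN : x ∈ normalizer (P : Set G) := le_normalizer (H := (P : Subgroup G)) hxP
    have h1 : (2 : ℕ) ∣ Nat.card (normalizer (P : Set G)) := by
      have := orderOf_dvd_natCard (⟨x, hxN⟩ : normalizer (P : Set G))
      rwa [Subgroup.orderOf_mk, hx] at this
    exact even_iff_two_dvd.2 h1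
  · intro g hg
    by_contra hodd
    rw [Nat.not_odd_iff_even, even_iff_two_dvd] at hodd
    obtain ⟨t, ht⟩ := exists_prime_orderOf_dvd_card' 2 hodd
    obtain ⟨ht1, t', ht', htt⟩ := t.2
    have ht2 : orderOf (t : G) = 2 := by rw [Subgroup.orderOf_coe, ht]
    have htt' : g * t' * g⁻¹ = (t : G) := htt
    have ht'2 : orderOf t' = 2 := by
      rw [← ht2, ← htt']
      exact (orderOf_injective (MulAut.conj g).toMonoidHom (MulAut.conj g).injective t').symm
    have htP := hinv _ ht2 ht1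
    have ht'P := hinv _ ht'2 ht'
    apply hg
    change g ∈ normalizer ((P : Subgroup G) : Set G)
    rw [Subgroup.mem_normalizer_iff]
    intro h
    change h ∈ P ↔ g * h * g⁻¹ ∈ P
    rw [hC.mem_sylow_iff P ht'P ht'2, hC.mem_sylow_iff P htP ht2, ← htt']
    have e1 : ∀ k : ℕ, (g * h * g⁻¹) ^ k = g * h ^ k * g⁻¹ := fun k => conj_pow
    constructor
    · rintro ⟨h1, k, hk⟩
      refine ⟨?_, k, by rw [e1, hk]; group⟩
      calc g * h * g⁻¹ * (g * t' * g⁻¹) = g * (h * t') * g⁻¹ := by group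
        _ = _ := by rw [h1]; group
    · rintro ⟨h1, k, hk⟩
      refine ⟨?_, k, ?_⟩
      · calc h * t' = g⁻¹ * (g * h * g⁻¹ * (g * t' * g⁻¹)) * g := by group
          _ = _ := by rw [h1]; group
      · rw [e1] at hk
        calc h ^ 2 ^ k = g⁻¹ * (g * h ^ 2 ^ k * g⁻¹) * g := by group
          _ = _ := by rw [hk]; group

end Cfsg.Agent.H91.Pgu
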