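import Mathlib
import Cfsg.Agent.H91.PguSE
import Cfsg.Agent.H971.Bender
import Cfsg.Agent.StrongEmb.Main
import Cfsg.Agent.BenderType.Classify
import Cfsg.Agent.SporadicStructure.PsuMatch

/-!
# Characterisation of `PGU(3, q)`, `q > 2` even, by the centraliser of an involution
-/

set_option autoImplicit false

universe u

namespace Cfsg.Agent.H91.Pgu

open Cfsg Cfsg.Agent.StrongEmb.Split Cfsg.Agent.StrongEmb.Basic Cfsg.Agent.StrongEmb.TwoRank
  Cfsg.Agent.TwoFusion.StronglyEmbeddedBasic Cfsg.Agent.SuzukiRankOne.Reduction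

/-- A group with `O(G) = 1` and a strongly embedded subgroup and a Sylow 2-subgroup of type `PSU(3, 2^n)`. -/
theorem exists_equiv_invClosure {G : Type u} [Group G] [Finite G] {H : Subgroup G} (hH : IsStronglyEmbedded H)
    (hr : CommPair G) (hO : pPrimeCore 2 G = ⊥) (P : Sylow 2 G) {n : ℕ} (hn : 1 ≤ n)
    (hP : Cfsg.Agent.BenderType.Inv.Ty (P : Subgroup G) ((2 ^ n) ^ 3) (2 ^ n)) :
    Odd (invClosure G).index ∧ ∃ (F : Type) (_ : Field F) (_ : Fintype F), Fintype.card F = 4 ^ n ∧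
      Nonempty (invClosure G ≃* PSU 3 F (2 ^ n)) := by
  have : Fact (Nat.Prime 2) := ⟨Nat.prime_two⟩
  have hsim := isSimpleGroup_invClosure hH hO
  have hK := stronglyEmbedded_invClosure hH
  have hcp := commPair_invClosure hr
  have hcore : H.normalCore = ⊥ := by rw [normalCore_eq_oddCore hH hr]; exact hO
  obtain ⟨Q', hQ', -⟩ := Cfsg.Agent.StrongEmb.Main.bender _ _ hK hcp (normalCore_eq_bot_of_simple hK.1)
  obtain ⟨Q, hQle, hQ, hQ2⟩ := Cfsg.Agent.H971.Bender.exists_isSplit_le hH hr hcore ⟨Q', hQ'⟩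
  obtain ⟨t, ht, ht2⟩ := exists_involution_notMem hH
  have hidx : Odd Q.index :=
    Cfsg.Agent.SuzukiRankOne.Reduction.odd_index_of_le (setup_of_isSplit hH hQ ht ht2) le_rfl
  have hodd : Odd (invClosure G).index := Odd.of_dvd_nat hidx (Subgroup.index_dvd_of_le hQle)
  refine ⟨hodd, ?_⟩
  obtain ⟨R⟩ : Nonempty (Sylow 2 (invClosure G)) := inferInstance
  have hRodd : Odd R.index := by
    rw [← Nat.not_even_iff_odd, even_iff_two_dvd]
    exact R.not_dvd_index
  have hR2 : IsPGroup 2 ((R : Subgroup (invClosure G)).map (invClosure G).subtype) := R.isPGroup'.map _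
  have hRi : ¬ 2 ∣ ((R : Subgroup (invClosure G)).map (invClosure G).subtype).index := by
    rw [Subgroup.index_map_subtype, ← even_iff_two_dvd, Nat.not_even_iff_odd]
    exact hRodd.mul hodd
  have e : (P : Subgroup G) ≃* (R : Subgroup (invClosure G)) :=
    (P.equiv (hR2.toSylow hRi)).trans
      ((R : Subgroup (invClosure G)).equivMapOfInjective _ (invClosure G).subtype_injective).symm
  exact Cfsg.Agent.BenderType.Classify.psu_of_concl
    (Cfsg.Agent.StrongEmb.Simple.of_isSplit hK hQ' hcp) R hn (hP.congr e)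

section Final

variable {G : Type u} [Group G] [Finite G] {F : Type*} [Field F] [Fintype F] {q : ℕ}

/-- the action of `G` on a normal subgroup `L ≃* PSU 3 F q` -/
noncomputable def Psi (L : Subgroup G) [L.Normal] (e : L ≃* PSU 3 F q) : G →* MulAut (PSU 3 F q) :=
  (MulAut.congr e).toMonoidHom.comp MulAut.conjNormal

omit [Finite G] [Fintype F] in
theorem Psi_apply (L : Subgroup G) [L.Normal] (e : L ≃* PSU 3 F q) (g : G) (y : L) :
    Psi L e g (e y) = e (MulAut.conjNormal g y) := by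
  change e (MulAut.conjNormal g (e.symm (e y))) = _
  rw [MulEquiv.symm_apply_apply]

omit [Finite G] [Fintype F] in
theorem Psi_coe (L : Subgroup G) [L.Normal] (e : L ≃* PSU 3 F q) (l : L) :
    Psi L e (l : G) = MulAut.conj (e l) := by
  ext s
  obtain ⟨y, rfl⟩ := e.surjective s
  rw [Psi_apply, MulAut.conj_apply, ← map_inv, ← map_mul, ← map_mul]
  rfl

/-- **The final step.** -/
theorem final [CharP F 2] (hF : Fintype.card F = q ^ 2) (hq : 2 < q) {S : Type*} [Group S] (hC : CentHyp G S)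
    (hO : pPrimeCore 2 G = ⊥) (L : Subgroup G) [hL : L.Normal] (hodd : Odd L.index)
    (hinv : ∀ x : G, orderOf x = 2 → x ∈ L) (e : L ≃* PSU 3 F q)
    (hCe : ∀ (x : G) (y : GU 3 F q ⧸ Subgroup.center (GU 3 F q)), orderOf x = 2 → orderOf y = 2 →
      Nonempty (↥(Subgroup.centralizer ({x} : Set G)) ≃*
        ↥(Subgroup.centralizer ({y} : Set (GU 3 F q ⧸ Subgroup.center (GU 3 F q)))))) :
    Nonempty (G ≃* (GU 3 F q ⧸ Subgroup.center (GU 3 F q))) := by
  have : Fact (Nat.Prime 2) := ⟨Nat.prime_two⟩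
  have h32 : ¬ (3 = 3 ∧ q = 2) := by omega
  have hfinY := finite_PSU hF
  have hfinM := finite_MulAut hF
  set Ψ := Psi L e with hΨ
  -- an involution
  obtain ⟨x, hx⟩ : ∃ x : G, orderOf x = 2 := by
    obtain ⟨P⟩ : Nonempty (Sylow 2 (PSU 3 F q)) := inferInstance
    obtain ⟨n, hn, hqn⟩ := exists_eq_two_pow hF hq
    subst hqn
    obtain ⟨-, -, -, -, -, ⟨a, b, hab, ha1, haa, -⟩, -⟩ := Cfsg.Agent.S1141.result hn hF P
    refine ⟨((e.symm (a : PSU 3 F (2 ^ n)) : L) : G), ?_⟩
    rw [Subgroup.orderOf_coe, e.symm.orderOf_eq, Subgroup.orderOf_coe]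
    exact orderOf_eq_prime (by rw [pow_two, haa]) ha1
  have hxL := hinv x hx
  set t : PSU 3 F q := e ⟨x, hxL⟩ with ht
  have ht2 : orderOf t = 2 := by rw [ht, e.orderOf_eq, Subgroup.orderOf_mk, hx]
  -- injectivity
  have hinj : Function.Injective Ψ := by
    rw [← MonoidHom.ker_eq_bot_iff, eq_bot_iff]
    have hkL : ∀ g ∈ Ψ.ker, g ∈ L → g = 1 := by
      intro g hg hgL
      have h1 : Ψ g = 1 := hg
      have h2 := Psi_coe L e ⟨g, hgL⟩
      rw [← hΨ, show ((⟨g, hgL⟩ : L) : G) = g from rfl, h1, ← map_one (MulAut.conj : PSU 3 F q →* _)] at h2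
      have h3 := conj_injective hF hq h2
      have h4 : (1 : L) = ⟨g, hgL⟩ := e.injective (by rw [map_one, h3])
      exact (congrArg Subtype.val h4).symm
    have hk : Odd (Nat.card Ψ.ker) := by
      by_contra hno
      rw [Nat.not_odd_iff_even, even_iff_two_dvd] at hno
      obtain ⟨s, hs⟩ := exists_prime_orderOf_dvd_card' 2 hno
      have hs2 : orderOf (s : G) = 2 := by rw [Subgroup.orderOf_coe, hs]
      have h1 := hkL s s.2 (hinv _ hs2)
      rw [h1, orderOf_one] at hs2
      omega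
    rw [← hO]
    exact le_sSup ⟨inferInstance, Nat.coprime_two_right.mpr hk⟩
  -- factorisation
  have hfac : ∀ α : MulAut (PSU 3 F q), ∃ l : L, ((MulAut.conj (e l))⁻¹ * α) t = t := by
    intro α
    obtain ⟨y, hy⟩ := exists_conj_inv hF hq ht2 (t := α t) (by rw [α.orderOf_eq, ht2])
    refine ⟨e.symm y, ?_⟩
    rw [MulEquiv.apply_symm_apply, MulAut.mul_apply, ← hy, MulAut.conj_inv_apply]
    group
  -- elements of the centraliser of `x`
  have hcx : ∀ c : G, c * x = x * c → ∀ s : PSU 3 F q, orderOf s = 2 → Commute s t → Ψ c s = s := by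
    intro c hc s hs hst
    obtain ⟨y, rfl⟩ := e.surjective s
    have hy2 : orderOf (y : G) = 2 := by rw [Subgroup.orderOf_coe, ← e.orderOf_eq y, hs]
    have hyx : (y : G) * x = x * y := by
      have h1 : e y * e ⟨x, hxL⟩ = e ⟨x, hxL⟩ * e y := hst
      rw [← map_mul, ← map_mul] at h1
      exact congrArg Subtype.val (e.injective h1)
    have h2 := hC.comm hx hy2 hyx.symm hc
    rw [hΨ, Psi_apply]
    congr 1
    apply Subtype.ext
    rw [MulAut.conjNormal_apply]
    rw [h2, mul_inv_cancel_right]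
  have hmem : ∀ c : G, Ψ c t = t ↔ c * x = x * c := by
    intro c
    rw [hΨ, ht, Psi_apply, e.injective.eq_iff]
    rw [← mul_inv_eq_iff_eq_mul]
    constructor
    · intro h
      have := congrArg Subtype.val h
      rwa [MulAut.conjNormal_apply] at this
    · intro h
      apply Subtype.ext
      rw [MulAut.conjNormal_apply]
      exact h
  -- `Ψ(G)` consists of linear automorphisms
  have hrho : ∀ g : G, Cfsg.Agent.KFacts.OutCyc.PSU.rho hF le_rfl h32 (Ψ g) = 1 := by
    intro g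
    obtain ⟨l, hl⟩ := hfac (Ψ g)
    have hΨl : MulAut.conj (e l) = Ψ (l : G) := (Psi_coe L e l).symm
    have hc : (MulAut.conj (e l))⁻¹ * Ψ g = Ψ ((l : G)⁻¹ * g) := by
      rw [hΨl, map_mul, map_inv]
    set c := (l : G)⁻¹ * g with hcdef
    rw [hc] at hl
    have hcx' := (hmem c).1 hl
    obtain ⟨A, hA⟩ := Cfsg.Agent.KFacts.OutCyc.PSU.rho_spec hF le_rfl h32 (Ψ c)
    have hsq : Cfsg.Agent.KFacts.OutCyc.PSU.rho hF le_rfl h32 (Ψ c) *
        Cfsg.Agent.KFacts.OutCyc.PSU.rho hF le_rfl h32 (Ψ c) = 1 :=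
      rho_sq hF hq A _ ht2 (fun s hs hst => by rw [← hA]; exact hcx c hcx' s hs hst)
    have hL1 : ∀ l' : L, Cfsg.Agent.KFacts.OutCyc.PSU.rho hF le_rfl h32 (Ψ (l' : G)) = 1 := by
      intro l'
      rw [hΨ, Psi_coe, Cfsg.Agent.KFacts.OutCyc.PSU.rho_conj]
    have hci : c ^ L.index ∈ L := by
      rw [← QuotientGroup.eq_one_iff, QuotientGroup.mk_pow]
      exact pow_card_eq_one'
    have h1 := hL1 ⟨_, hci⟩
    rw [show ((⟨c ^ L.index, hci⟩ : L) : G) = c ^ L.index from rfl, map_pow, map_pow] at h1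
    have hc1 : Cfsg.Agent.KFacts.OutCyc.PSU.rho hF le_rfl h32 (Ψ c) = 1 := by
      rw [← orderOf_eq_one_iff]
      exact Nat.Coprime.eq_one_of_dvd
        ((Nat.coprime_two_left.mpr hodd).coprime_dvd_left (orderOf_dvd_of_pow_eq_one (by rw [pow_two]; exact hsq)))
        (orderOf_dvd_of_pow_eq_one h1)
    have hg : g = l * c := by rw [hcdef]; group
    rw [hg, map_mul, map_mul, hL1 l, hc1, one_mul]
  -- surjectivity
  obtain ⟨y₀, hy₀⟩ := (mem_range_jU hF hq h32 (MulAut.conj t)).2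
    (Cfsg.Agent.KFacts.OutCyc.PSU.rho_conj hF le_rfl h32 t)
  have hy₀2 : orderOf y₀ = 2 := by
    rw [← orderOf_injective _ (jU_injective hF hq), hy₀, orderOf_injective _ (conj_injective hF hq), ht2]
  have hcard : Nat.card (CC hF h32 t) = Nat.card (Subgroup.centralizer ({x} : Set G)) := by
    obtain ⟨f⟩ := hCe x y₀ hx hy₀2
    rw [Nat.card_congr f.toEquiv, ← map_centralizer_eq hF hq h32 hy₀,
      Subgroup.card_map_of_injective (jU_injective hF hq)]
  have himg : (Subgroup.centralizer ({x} : Set G)).map Ψ = CC hF h32 t := by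
    apply Subgroup.eq_of_le_of_card_ge
    · rintro _ ⟨c, hc, rfl⟩
      exact mem_CC.2 ⟨hrho c, (hmem c).2 (Subgroup.mem_centralizer_singleton_iff.1 hc)⟩
    · rw [hcard, Subgroup.card_map_of_injective hinj]
  have hrange : Ψ.range = (jU hF hq).range := by
    ext α
    rw [mem_range_jU hF hq h32]
    constructor
    · rintro ⟨g, rfl⟩; exact hrho g
    · intro hα
      obtain ⟨l, hl⟩ := hfac α
      have h1 : (MulAut.conj (e l))⁻¹ * α ∈ CC hF h32 t := by
        refine mem_CC.2 ⟨?_, hl⟩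
        rw [map_mul, map_inv, hα, Cfsg.Agent.KFacts.OutCyc.PSU.rho_conj, inv_one, one_mul]
      rw [← himg] at h1
      obtain ⟨c, -, hc⟩ := h1
      refine ⟨l * c, ?_⟩
      rw [map_mul, hc, hΨ, Psi_coe, mul_inv_cancel_left]
  exact ⟨((MonoidHom.ofInjective hinj).trans (MulEquiv.subgroupCongr hrange)).trans
    (MonoidHom.ofInjective (jU_injective hF hq)).symm⟩

end Final

end Cfsg.Agent.H91.Pgu
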