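import Mathlib
import Cfsg.Agent.KFacts.OutCyc.PSU
import Cfsg.Agent.FooteExc.ModelPSU
import Cfsg.Agent.S1141
import Cfsg.Agent.S1137
import Cfsg.Agent.Involutions.UniqueInvolution

/-!
# Involutions, Sylow 2-subgroups and linear automorphisms of `PSU(3, q)`, `q > 2` even

For `Y = PSU 3 F q`:
* `exists_tau_comm` : commuting involutions of `Y` are `tau v`, `tau (c • v)`;
* `apply_eq_of_commute` : a linear automorphism which fixes an involution fixes all involutions commuting with it;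
-/

set_option autoImplicit false

namespace Cfsg.Agent.H91.Pgu

open Cfsg Cfsg.Agent.LieClassical.HermBasic Cfsg.Agent.LieClassical.HermSiegel
open Cfsg.Agent.ClassicalGeometry.UnitAutBasic (c0 T tau tau_def act_T_smul exists_c0_mul_norm
  tau_eq_tau_iff tau_smul_congr iso_smul tau_eq_one_iff tau_comm_iff c0_ne_zero tau_mul)
open Cfsg.Agent.ClassicalGeometry.PSUAutCount (gm toAut toAut_tau exists_r eq_of_toAut_eq herm_semi)
open Cfsg.Agent.ClassicalGeometry.PSUAutSylow (RR mem_RR cent cent_sylow exists_sylow_lift exists_fixed)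
open Cfsg.Agent.ClassicalGeometry.PSUAutBasic (transv transvG act_transv)

open Matrix

variable {F : Type*} [Field F] [Fintype F] {q : ℕ}

/-- `q` is a power of two. -/
theorem exists_eq_two_pow [CharP F 2] (hF : Fintype.card F = q ^ 2) (hq : 2 < q) :
    ∃ n, 2 ≤ n ∧ q = 2 ^ n := by
  obtain ⟨m, hp, hm⟩ := FiniteField.card F 2
  have h1 : q ∣ 2 ^ (m : ℕ) := by
    rw [← hm, hF]; exact dvd_pow_self q (by norm_num)
  obtain ⟨n, -, hn⟩ := (Nat.dvd_prime_pow Nat.prime_two).mp h1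
  refine ⟨n, ?_, hn⟩
  by_contra hlt
  have : n ≤ 1 := by omega
  have h2 : 2 ^ n ≤ 2 ^ 1 := Nat.pow_le_pow_right (by norm_num) this
  omega

theorem finite_PSU (hF : Fintype.card F = q ^ 2) : Finite (PSU 3 F q) :=
  Finite.of_surjective _ (Cfsg.Agent.ClassicalGeometry.UnitAutBasic.pr_surjective (n := 3) (F := F) (q := q))

/-- The elements of `RR u` are the `tau (a • u)`. -/
theorem exists_tau_of_mem_RR {n : ℕ} (hF : Fintype.card F = q ^ 2) {u : Fin n → F}
    (hu : hermForm n F q u u = 0) {x : PSU n F q} (hx : x ∈ RR hF u hu) :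
    ∃ a : F, x = tau hF (a • u) := by
  obtain ⟨μ, hμ, rfl⟩ := mem_RR.1 hx
  obtain ⟨a, ha⟩ := exists_c0_mul_norm hF hμ
  refine ⟨a, ?_⟩
  rw [tau_def]
  change QuotientGroup.mk' _ _ = QuotientGroup.mk' _ _
  congr 1
  apply ext_act
  intro y
  rw [act_transv, act_T_smul hF hu, ha]

/-- Sylow 2-subgroups: involutions are central -/
theorem sylow_center [CharP F 2] (hF : Fintype.card F = q ^ 2) (hq : 2 < q)
    (P : Sylow 2 (PSU 3 F q)) {x : PSU 3 F q} (hx : x ∈ P) (hx2 : orderOf x = 2) :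
    ∀ y ∈ P, x * y = y * x := by
  obtain ⟨n, hn, rfl⟩ := exists_eq_two_pow hF hq
  obtain ⟨-, -, hS⟩ := Cfsg.Agent.S1141.result hn hF P
  have h1 := (Cfsg.Agent.S1137.result hS).1 ⟨x, hx⟩
  have hx1 : x ≠ 1 := by rintro rfl; rw [orderOf_one] at hx2; omega
  have hxx : x * x = 1 := by
    have := pow_orderOf_eq_one x; rwa [hx2, pow_two] at this
  obtain ⟨h2, -⟩ := h1.1 ⟨fun h => hx1 (congrArg Subtype.val h), Subtype.ext hxx⟩
  intro y hy
  have h3 := Subgroup.mem_center_iff.1 h2 ⟨y, hy⟩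
  exact (congrArg Subtype.val h3).symm

/-- the involutions of a Sylow 2-subgroup -/
theorem exists_tau_sylow [CharP F 2] (hF : Fintype.card F = q ^ 2) (hq : 2 < q)
    (P : Sylow 2 (PSU 3 F q)) :
    ∃ u : Fin 3 → F, u ≠ 0 ∧ hermForm 3 F q u u = 0 ∧
      ∀ x ∈ P, orderOf x = 2 → ∃ a : F, a ≠ 0 ∧ x = tau hF (a • u) := by
  have : Fact (Nat.Prime 2) := ⟨Nat.prime_two⟩
  obtain ⟨S, hS⟩ := exists_sylow_lift 2 P
  obtain ⟨u, hu0, hu, hfix⟩ := exists_fixed 2 hF (by norm_num) S.isPGroup'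
  refine ⟨u, hu0, hu, fun x hx hx2 => ?_⟩
  have h1 := cent_sylow 2 hF le_rfl S hu0 hu hfix
  have h2 : x ∈ cent ((S : Subgroup (SU 3 F q)).map (Cfsg.Agent.ClassicalGeometry.PSUAutBasic.pr 3 F q)) := by
    rw [hS]
    refine ⟨hx, ?_⟩
    refine Subgroup.mem_centralizer_iff.2 ?_
    intro y hy
    exact (sylow_center hF hq P hx hx2 y hy).symm
  rw [h1] at h2
  obtain ⟨a, ha⟩ := exists_tau_of_mem_RR hF hu h2
  refine ⟨a, ?_, ha⟩
  rintro rfl
  rw [zero_smul, Cfsg.Agent.ClassicalGeometry.UnitAutBasic.tau_zero] at ha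
  rw [ha, orderOf_one] at hx2
  omega

/-- commuting involutions -/
theorem exists_tau_comm [CharP F 2] (hF : Fintype.card F = q ^ 2) (hq : 2 < q) {s t : PSU 3 F q}
    (hs : orderOf s = 2) (ht : orderOf t = 2) (hst : Commute s t) :
    ∃ v : Fin 3 → F, v ≠ 0 ∧ hermForm 3 F q v v = 0 ∧ t = tau hF v ∧
      ∃ c : F, c ≠ 0 ∧ s = tau hF (c • v) := by
  have : Fact (Nat.Prime 2) := ⟨Nat.prime_two⟩
  have hfin := finite_PSU hF
  have h := Cfsg.Agent.Involutions.UniqueInvolution.isPGroup_sup (p := 2) (s := s) (t := t)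
    ⟨1, by rw [hs]; rfl⟩ ⟨1, by rw [ht]; rfl⟩ hst
  obtain ⟨P, hP⟩ := h.exists_le_sylow
  obtain ⟨u, hu0, hu, hP'⟩ := exists_tau_sylow hF hq P
  obtain ⟨a, ha, hsa⟩ := hP' s (hP (Subgroup.mem_sup_left (Subgroup.mem_zpowers s))) hs
  obtain ⟨b, hb, htb⟩ := hP' t (hP (Subgroup.mem_sup_right (Subgroup.mem_zpowers t))) ht
  refine ⟨b • u, smul_ne_zero hb hu0, iso_smul b hu, htb, a / b, div_ne_zero ha hb, ?_⟩
  rw [smul_smul, div_mul_cancel₀ a hb, hsa]

/-- a linear automorphism which fixes an involution fixes the involutions commuting with it -/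
theorem apply_eq_of_commute [CharP F 2] (hF : Fintype.card F = q ^ 2) (hq : 2 < q) (A : GU 3 F q)
    {s t : PSU 3 F q} (hs : orderOf s = 2) (ht : orderOf t = 2) (hst : Commute s t)
    (hA : toAut A 1 t = t) : toAut A 1 s = s := by
  obtain ⟨v, hv0, hv, rfl, c, hc, rfl⟩ := exists_tau_comm hF hq hs ht hst
  have hid : ∀ w : Fin 3 → F, (fun i => (1 : F ≃+* F) (w i)) = w := fun w => rfl
  have h1 : ∀ w : Fin 3 → F, hermForm 3 F q w w = 0 → toAut A 1 (tau hF w) = tau hF (gm A *ᵥ w) := by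
    intro w hw
    have h := toAut_tau hF A 1 (r := 1) (by rw [one_pow, mul_one, mul_one]; rfl) hw
    rw [hid, one_smul] at h
    exact h
  rw [h1 v hv] at hA
  have hAv : hermForm 3 F q (gm A *ᵥ v) (gm A *ᵥ v) = 0 := by
    rw [Cfsg.Agent.ClassicalGeometry.PSUAutCount.herm_gm, hv]
  obtain ⟨ζ, hζ, hζv⟩ := (tau_eq_tau_iff hF le_rfl hv hAv hv0).1 hA.symm
  rw [h1 _ (iso_smul c hv), mulVec_smul, hζv, smul_smul]
  apply tau_smul_congr hF hv
  rw [mul_pow]
  linear_combination (c * c ^ q) * hζ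

/-- the field automorphism of an automorphism which fixes the involutions commuting with `t` has order at most two -/
theorem rho_sq [CharP F 2] (hF : Fintype.card F = q ^ 2) (hq : 2 < q) (A : GU 3 F q) (ρ : F ≃+* F)
    {t : PSU 3 F q} (ht : orderOf t = 2)
    (hA : ∀ s : PSU 3 F q, orderOf s = 2 → Commute s t → toAut A ρ s = s) : ρ * ρ = 1 := by
  obtain ⟨v, hv0, hv, rfl, -⟩ := exists_tau_comm hF hq ht ht (Commute.refl t)
  obtain ⟨r, hr0, hr⟩ := exists_r hF ρ
  set w : Fin 3 → F := r • (gm A *ᵥ fun i => ρ (v i)) with hw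
  have hwi : hermForm 3 F q w w = 0 := iso_smul r (by rw [herm_semi, hv, map_zero])
  have hcomm : ∀ c : F, c ≠ 0 → toAut A ρ (tau hF (c • v)) = tau hF (c • v) := by
    intro c hc
    have hc0 : c • v ≠ 0 := smul_ne_zero hc hv0
    apply hA
    · apply orderOf_eq_prime
      · rw [pow_two, tau_mul hF hv (c := 0), zero_smul,
          Cfsg.Agent.ClassicalGeometry.UnitAutBasic.tau_zero]
        rw [CharTwo.add_self_eq_zero, zero_mul]
      · intro h
        exact hc0 ((tau_eq_one_iff hF le_rfl (iso_smul c hv)).1 h)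
    · refine (tau_comm_iff hF le_rfl (iso_smul c hv) hv hv0).2 ?_
      rw [herm_smul_right, hv, mul_zero]
  have himg : ∀ c : F, toAut A ρ (tau hF (c • v)) = tau hF (ρ c • w) := by
    intro c
    rw [toAut_tau hF A ρ hr (iso_smul c hv),
      show (fun i => ρ ((c • v) i)) = ρ c • (fun i => ρ (v i)) by
        funext i; simp [Pi.smul_apply, smul_eq_mul, map_mul], mulVec_smul, hw, smul_comm]
  obtain ⟨ζ, hζ, hζw⟩ : ∃ ζ : F, ζ * ζ ^ q = 1 ∧ w = ζ • v := by
    refine (tau_eq_tau_iff hF le_rfl hv hwi hv0).1 ?_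
    have h1 := hcomm 1 one_ne_zero
    rw [himg, map_one, one_smul, one_smul] at h1
    exact h1.symm
  have hnorm : ∀ c : F, ρ (c * c ^ q) = c * c ^ q := by
    intro c
    rcases eq_or_ne c 0 with rfl | hc
    · rw [zero_mul, map_zero]
    have h1 := hcomm c hc
    rw [himg, hζw, smul_smul] at h1
    obtain ⟨ξ, hξ, hξw⟩ := (tau_eq_tau_iff hF le_rfl (iso_smul c hv) (iso_smul _ hv)
      (smul_ne_zero hc hv0)).1 h1.symm
    rw [smul_smul] at hξw
    have h2 : ρ c * ζ = ξ * c := smul_left_injective F hv0 hξw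
    rw [map_mul, map_pow]
    calc ρ c * ρ c ^ q = (ρ c * ζ) * (ρ c * ζ) ^ q := by
          rw [mul_pow]; linear_combination -(ρ c * ρ c ^ q) * hζ
      _ = c * c ^ q := by rw [h2, mul_pow]; linear_combination (c * c ^ q) * hξ
  have hfix : ∀ x : F, x ^ q = x → ρ x = x := by
    intro x hx
    obtain ⟨a, ha⟩ := exists_norm_eq hF (c := x) hx
    rw [← ha, hnorm]
  have hqq : ∀ x : F, (x ^ q) ^ q = x := fun x => pow_q_pow_q hF x
  have hor : ∀ x : F, ρ x = x ∨ ρ x = x ^ q := by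
    intro x
    have h1 : ρ (x + x ^ q) = x + x ^ q := by
      apply hfix
      rw [add_pow_q hF, hqq, add_comm]
    have h2 : ρ (x * x ^ q) = x * x ^ q := hnorm x
    rw [map_add] at h1
    rw [map_mul] at h2
    have h3 : (ρ x - x) * (ρ x - x ^ q) = 0 := by
      linear_combination (ρ x) * h1 - h2
    rcases mul_eq_zero.1 h3 with h | h
    · left; exact sub_eq_zero.1 h
    · right; exact sub_eq_zero.1 h
  ext x
  change ρ (ρ x) = x
  rcases hor x with h | h
  · rw [h, h]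
  · rw [h, map_pow, h, hqq]

end Cfsg.Agent.H91.Pgu
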