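import Cfsg.Agent.H91.PointOrb
import Cfsg.Agent.H91.SympStd
import Cfsg.Agent.H783.SympStab
import Cfsg.Agent.H476.SympStab
import Cfsg.Agent.H415.SpFlag

/-!
# Rank three actions of `PSp`: the dichotomy (helper91)

Either the stabiliser contains a Sylow `p`-subgroup, and is a parabolic subgroup, or there is a function `r ≠ 0` which is
orthogonal to the functions invariant under the stabilisers of totally isotropic flags.
-/

set_option autoImplicit false
set_option linter.unusedSectionVars false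

namespace Cfsg.Agent.H91.PspDich

open Cfsg Symp Cfsg.Agent.H91.Flag FlagFun ZeroB Module RankThree
open Cfsg.Agent.TitsThree Cfsg.Agent.TitsThree.SpIdent Cfsg.Agent.H249 Cfsg.Agent.H249.Pair

variable {k : ℕ} {F : Type*} [Field F] [Fintype F]

variable (k F) in
/-- the projection onto `PSp` -/
noncomputable def pi : Iso (sB k F) →* PSp k F := toPSp.comp (Subgroup.inclusion (isos_eq k F).ge)

theorem pi_apply (g : Iso (sB k F)) : pi k F g = toPSp ⟨g.1, (isos_eq k F).ge g.2⟩ := rfl

theorem pi_surjective : Function.Surjective (pi k F) := by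
  intro y
  obtain ⟨g, rfl⟩ := toPSp_surjective y
  exact ⟨⟨g.1, (isos_eq k F).le g.2⟩, rfl⟩

theorem li_e : LinearIndependent F (SpIdent.e k F) := by
  have h1 : SpIdent.e k F = (fun j : Fin k ⊕ Fin k => (Pi.single j 1 : Fin k ⊕ Fin k → F)) ∘ Sum.inr := rfl
  rw [h1]
  refine LinearIndependent.comp ?_ _ Sum.inr_injective
  have := (Pi.basisFun F (Fin k ⊕ Fin k)).linearIndependent
  have h2 : (⇑(Pi.basisFun F (Fin k ⊕ Fin k))) = fun j : Fin k ⊕ Fin k => (Pi.single j 1 : Fin k ⊕ Fin k → F) := by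
    funext j
    exact Pi.basisFun_apply F (Fin k ⊕ Fin k) j
  rwa [h2] at this

theorem le_of_frame {j : ℕ} {u : Fin j → (Fin k ⊕ Fin k → F)} (hu : Frame (sB k F) u) : j ≤ k := by
  have h1 := finrank_perp (sform_sB k F) (Submodule.span F (Set.range u))
  have h2 : Submodule.span F (Set.range u) ≤ perp (sB k F) (Submodule.span F (Set.range u)) := fun x hx y hy =>
    Flag.Frame.mem_span_ti (sform_sB k F) hu hx hy
  have h3 := Submodule.finrank_mono h2
  rw [finrank_std, finrank_span_eq_card hu.li, Fintype.card_fin] at h1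
  rw [finrank_span_eq_card hu.li, Fintype.card_fin] at h3
  omega

section

variable {X : Type*} [Fintype X] [MulAction (PSp k F) X] [MulAction (Iso (sB k F)) X]
  (hc : ∀ (g : Iso (sB k F)) (x : X), g • x = pi k F g • x)

include hc in
/-- the function `r` -/
theorem exists_orth {I : Type*} {p : ℕ} (D : Dat (PSp k F) I p)
    (hD : ∀ y ∈ D.B, ∃ g : isos (form k F), toPSp g = y ∧
      ∀ i : ℕ, (Submodule.span F (SpIdent.e k F '' {l | (l : ℕ) < i})).map (g.1 : _ →ₗ[F] _) =
        Submodule.span F (SpIdent.e k F '' {l | (l : ℕ) < i}))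
    (hG : ¬ Gen (PSp k F) (Ω := X) D.B) : ∃ r : X → ℝ, r ≠ 0 ∧ Orth (sB k F) r := by
  classical
  unfold Gen at hG
  push Not at hG
  obtain ⟨h, hperp, hne⟩ := hG
  -- orthogonality for the complex function
  have key : ∀ (j : ℕ) (u : Fin j → (Fin k ⊕ Fin k → F)) (f : X → ℝ), Frame (sB k F) u →
      (∀ g : Iso (sB k F), (∀ i, (W F u i).map (g.1 : _ →ₗ[F] _) = W F u i) → ∀ x, f (g • x) = f x) →
      ∑ x, (f x : ℂ) * h x = 0 := by
    intro j u f hu hf
    have hjk := le_of_frame hu
    let e' : Fin j → (Fin k ⊕ Fin k → F) := fun l => SpIdent.e k F (Fin.castLE hjk l)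
    have he' : Frame (sB k F) e' :=
      ⟨li_e.comp _ (Fin.castLE_injective hjk), fun i l => SpIdent.ee _ _⟩
    have hWe : ∀ i, i ≤ j → W F e' i = Submodule.span F (SpIdent.e k F '' {l | (l : ℕ) < i}) := by
      intro i hi
      unfold W
      congr 1
      ext v
      constructor
      · rintro ⟨l, hl, rfl⟩
        exact ⟨Fin.castLE hjk l, hl, rfl⟩
      · rintro ⟨l, hl, rfl⟩
        exact ⟨⟨l, lt_of_lt_of_le hl hi⟩, hl, rfl⟩
    obtain ⟨g₀, hg₀, he₀⟩ := exists_frame_map (sform_sB k F) he' hu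
    let G₀ : Iso (sB k F) := ⟨g₀, hg₀⟩
    have hG₀ : G₀ • e' = u := funext he₀
    have h1 := hperp (pi k F G₀) (fun x => (f (G₀ • x) : ℂ)) ?_
    · unfold pr at h1
      rw [← h1, ← Equiv.sum_comp (MulAction.toPerm (pi k F G₀) : Equiv.Perm X)]
      refine Finset.sum_congr rfl fun x _ => ?_
      rw [MulAction.toPerm_apply]
      change (f (pi k F G₀ • x) : ℂ) * h (pi k F G₀ • x) = h (pi k F G₀ • x) * (f (G₀ • x) : ℂ)
      rw [hc]
      ring
    · intro b hb x
      obtain ⟨gb, hgb, hfl⟩ := hD b hb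
      let Gb : Iso (sB k F) := ⟨gb.1, (isos_eq k F).le gb.2⟩
      have hGb : pi k F Gb = b := hgb
      have h2 : b • x = Gb • x := by rw [hc, hGb]
      have h3 : G₀ • b • x = (G₀ * Gb * G₀⁻¹) • G₀ • x := by
        rw [h2, mul_smul, mul_smul, inv_smul_smul]
      have h4 : f (G₀ • b • x) = f (G₀ • x) := by
        rw [h3]
        refine hf _ (fun i => ?_) _
        have h5 : ∀ i, i ≤ j → (W F u i).map ((G₀ * Gb * G₀⁻¹).1 : _ →ₗ[F] _) = W F u i := by
          intro i hi
          rw [← W_smul, ← hG₀, mul_smul, mul_smul, inv_smul_smul, W_smul, W_smul, W_smul, hWe i hi]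
          congr 1
          exact hfl i
        rcases Nat.le_total i j with hi | hi
        · exact h5 i hi
        · rw [W_of_le u hi, ← W_of_le u le_rfl]
          exact h5 j le_rfl
      change ((f (G₀ • b • x) : ℝ) : ℂ) = ((f (G₀ • x) : ℝ) : ℂ)
      rw [h4]
  have hre : Orth (sB k F) (fun x => (h x).re) := by
    intro j u f hu hf
    have h1 := congrArg Complex.re (key j u f hu hf)
    rw [Complex.re_sum, Complex.zero_re] at h1
    rw [← h1]
    exact Finset.sum_congr rfl fun x _ => (Complex.re_ofReal_mul _ _).symm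
  have him : Orth (sB k F) (fun x => (h x).im) := by
    intro j u f hu hf
    have h1 := congrArg Complex.im (key j u f hu hf)
    rw [Complex.im_sum, Complex.zero_im] at h1
    rw [← h1]
    exact Finset.sum_congr rfl fun x _ => (Complex.im_ofReal_mul _ _).symm
  by_cases h0 : (fun x => (h x).re) = (0 : X → ℝ)
  · refine ⟨_, ?_, him⟩
    intro h1
    apply hne
    funext x
    exact Complex.ext (congrFun h0 x) (congrFun h1 x)
  · exact ⟨_, h0, hre⟩

include hc in
theorem stab_iff (x : X) (g : Iso (sB k F)) :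
    g ∈ MulAction.stabilizer (Iso (sB k F)) x ↔ pi k F g ∈ MulAction.stabilizer (PSp k F) x := by
  rw [MulAction.mem_stabilizer_iff, MulAction.mem_stabilizer_iff, hc]

include hc in
theorem pretransitive [MulAction.IsPretransitive (PSp k F) X] : MulAction.IsPretransitive (Iso (sB k F)) X := by
  refine ⟨fun x y => ?_⟩
  obtain ⟨g, hg⟩ := MulAction.exists_smul_eq (PSp k F) x y
  obtain ⟨g', rfl⟩ := pi_surjective g
  exact ⟨g', by rw [hc, hg]⟩

include hc in
/-- **The parabolic case.** -/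
theorem card_of_fixed (hk : 3 ≤ k) (hq : Odd (Fintype.card F)) {p : ℕ} [Fact p.Prime] [CharP F p]
    [MulAction.IsPreprimitive (PSp k F) X] (x₀ : X)
    (h3 : Nat.card (MulAction.orbitRel.Quotient (MulAction.stabilizer (Iso (sB k F)) x₀) X) = 3)
    {U : Subgroup (PSp k F)} (hU : ¬ p ∣ U.index) {x : X} (hx : ∀ u ∈ U, u • x = x) :
    Fintype.card X * (Fintype.card F - 1) = Fintype.card F ^ (2 * k) - 1 := by
  classical
  have htr := pretransitive hc
  have hB := sform_sB k F
  have hV := finrank_std k F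
  have hnt : Nontrivial X := by
    by_contra hcon
    rw [not_nontrivial_iff_subsingleton] at hcon
    have h1 : Nat.card (MulAction.orbitRel.Quotient (MulAction.stabilizer (Iso (sB k F)) x₀) X) ≤ 1 := by
      have : Subsingleton (MulAction.orbitRel.Quotient (MulAction.stabilizer (Iso (sB k F)) x₀) X) := by
        refine ⟨fun a b => ?_⟩
        rw [← Quotient.out_eq a, ← Quotient.out_eq b, Subsingleton.elim a.out b.out]
      exact Finite.card_le_one_iff_subsingleton.2 this
    omega
  have h3x : Nat.card (MulAction.orbitRel.Quotient (MulAction.stabilizer (Iso (sB k F)) x) X) = 3 := by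
    have : Finite ((Fin k ⊕ Fin k → F) ≃ₗ[F] (Fin k ⊕ Fin k → F)) :=
      Finite.of_injective (fun g : (Fin k ⊕ Fin k → F) ≃ₗ[F] (Fin k ⊕ Fin k → F) => (g : (Fin k ⊕ Fin k → F) → _))
        DFunLike.coe_injective
    have : Fintype (Iso (sB k F)) := Fintype.ofFinite _
    rw [← h3]
    exact card_orbits_eq x x₀
  have hco := MulAction.IsPreprimitive.isCoatom_stabilizer_of_isPreprimitive (G := PSp k F) x
  have hle : U ≤ MulAction.stabilizer (PSp k F) x := fun u hu => hx u hu
  have hidx : ¬ p ∣ (MulAction.stabilizer (PSp k F) x).index := fun h =>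
    hU (h.trans (Subgroup.index_dvd_of_le hle))
  obtain ⟨M, hM0, hTI, hM⟩ := H783.SympStab.exists_stab (by omega) hq _ hco hidx
  have hst : ∀ g : Iso (sB k F), g ∈ MulAction.stabilizer (Iso (sB k F)) x ↔ M.map (g.1 : (Fin k ⊕ Fin k → F) →ₗ[F] (Fin k ⊕ Fin k → F)) = M := by
    intro g
    rw [stab_iff hc, pi_apply, hM]
  have hMk : finrank F M ≤ k := by
    have h1 := finrank_perp hB M
    have h2 : M ≤ perp (sB k F) M := fun v hv w hw => hTI v hv w hw
    have h3 := Submodule.finrank_mono h2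
    omega
  rcases Nat.lt_or_ge (finrank F M) k with hlt | hge
  · obtain ⟨v, hv0, hv⟩ := H476.SympStab.exists_three_points hB hV hTI hM0 hlt
    refine PointOrb.card_of_three hB hV x h3x.le hv0 ?_
    rintro i j ⟨g, hg, c, e⟩
    exact hv i j ⟨g.1, g.2, (hst g).1 hg, c, e⟩
  · exfalso
    have hMk' : finrank F M = k := le_antisymm hMk hge
    have hex : ∀ j : Fin 4, ∃ g : Iso (sB k F), finrank F ↥(M ⊓ M.map (g.1 : (Fin k ⊕ Fin k → F) →ₗ[F] (Fin k ⊕ Fin k → F))) = k - j := by
      intro j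
      obtain ⟨g, hg, h⟩ := H476.SympStab.exists_inf_finrank hB hTI hMk' (j : ℕ) (by omega)
      exact ⟨⟨g, hg⟩, h⟩
    choose g hg using hex
    let f : Fin 4 → MulAction.orbitRel.Quotient (MulAction.stabilizer (Iso (sB k F)) x) X :=
      fun j => Quotient.mk'' (g j • x)
    have hf : Function.Injective f := by
      intro i j e
      have h1 : g i • x ∈ MulAction.orbit (MulAction.stabilizer (Iso (sB k F)) x) (g j • x) := Quotient.exact' e
      obtain ⟨⟨h, hh⟩, h2⟩ := h1
      have h2' : h • g j • x = g i • x := h2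
      have h4 : (g i)⁻¹ * h * g j ∈ MulAction.stabilizer (Iso (sB k F)) x := by
        rw [MulAction.mem_stabilizer_iff, mul_smul, mul_smul, h2', inv_smul_smul]
      rw [hst] at h4 hh
      have h5 : (M.map ((g j).1 : (Fin k ⊕ Fin k → F) →ₗ[F] (Fin k ⊕ Fin k → F))).map (h.1 : (Fin k ⊕ Fin k → F) →ₗ[F] (Fin k ⊕ Fin k → F)) = M.map ((g i).1 : (Fin k ⊕ Fin k → F) →ₗ[F] (Fin k ⊕ Fin k → F)) := by
        have h6 : ∀ a b : Iso (sB k F), M.map ((a * b).1 : (Fin k ⊕ Fin k → F) →ₗ[F] (Fin k ⊕ Fin k → F)) = (M.map (b.1 : (Fin k ⊕ Fin k → F) →ₗ[F] (Fin k ⊕ Fin k → F))).map (a.1 : (Fin k ⊕ Fin k → F) →ₗ[F] (Fin k ⊕ Fin k → F)) := by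
          intro a b
          rw [← Submodule.map_comp]
          rfl
        rw [← h6, show h * g j = g i * ((g i)⁻¹ * h * g j) by group, h6, h4]
      have h7 : (M ⊓ M.map ((g j).1 : (Fin k ⊕ Fin k → F) →ₗ[F] (Fin k ⊕ Fin k → F))).map (h.1 : (Fin k ⊕ Fin k → F) →ₗ[F] (Fin k ⊕ Fin k → F)) = M ⊓ M.map ((g i).1 : (Fin k ⊕ Fin k → F) →ₗ[F] (Fin k ⊕ Fin k → F)) := by
        rw [Submodule.map_inf _ h.1.injective, h5, hh]
      have h8 := LinearEquiv.finrank_map_eq h.1 (M ⊓ M.map ((g j).1 : (Fin k ⊕ Fin k → F) →ₗ[F] (Fin k ⊕ Fin k → F)))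
      rw [h7, hg, hg] at h8
      apply Fin.ext
      omega
    have : Finite (MulAction.orbitRel.Quotient (MulAction.stabilizer (Iso (sB k F)) x) X) := Quotient.finite _
    have h1 := Nat.card_le_card_of_injective f hf
    rw [h3x, Nat.card_eq_fintype_card, Fintype.card_fin] at h1
    omega

end

end Cfsg.Agent.H91.PspDich
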