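import Cfsg.Agent.H91.PspMain

/-!
# Primitive rank three actions of `PSp`, odd characteristic: transport along an isomorphism (helper91)
-/

set_option autoImplicit false

namespace Cfsg.Agent.H91.PspFinal

open Cfsg Cfsg.Agent.H91.PspMain

theorem result_of {G X : Type*} [Group G] [MulAction G X] [Fintype X] {F : Type*} [Field F] [Fintype F] (k : ℕ)
    (hk : 3 ≤ k) (hq : Odd (Fintype.card F)) (her : HerAct k F) (e : G ≃* Cfsg.PSp k F)
    (hprim : MulAction.IsPreprimitive G X) (x : X)
    (h3 : Nat.card (MulAction.orbitRel.Quotient ↥(MulAction.stabilizer G x) X) = 3) :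
    Fintype.card X * (Fintype.card F - 1) = Fintype.card F ^ (2 * k) - 1 := by
  let _ : MulAction (PSp k F) X := MulAction.compHom X e.symm.toMonoidHom
  have hc : ∀ (g : PSp k F) (x : X), g • x = e.symm g • x := fun _ _ => rfl
  have hc' : ∀ (g : G) (x : X), e g • x = g • x := fun g x => by rw [hc, e.symm_apply_apply]
  let f : X →ₑ[(e : G → PSp k F)] X := ⟨id, fun g x => (hc' g x).symm⟩
  have : MulAction.IsPreprimitive (PSp k F) X :=
    MulAction.IsPreprimitive.of_surjective (f := f) Function.surjective_id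
  refine psp_main hk hq her x ?_
  rw [← h3]
  refine Nat.card_congr (Quotient.congr (Equiv.refl X) fun a b => ?_)
  change a ∈ MulAction.orbit _ b ↔ a ∈ MulAction.orbit _ b
  constructor
  · rintro ⟨⟨g, hg⟩, rfl⟩
    exact ⟨⟨e.symm g, hg⟩, rfl⟩
  · rintro ⟨⟨g, hg⟩, rfl⟩
    exact ⟨⟨e g, (hc' g x).trans hg⟩, hc' g b⟩

end Cfsg.Agent.H91.PspFinal
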