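import Cfsg.Agent.H91.ZeroMid
import Cfsg.Agent.H184.ArcMain

/-!
# The stabiliser does not have exactly two orbits on points (helper91)
-/

set_option autoImplicit false
set_option linter.unusedSectionVars false

namespace Cfsg.Agent.H91.ZeroB

open Symp Cfsg.Agent.H91.Flag FlagFun Module RankThree

variable {F V : Type*} [Field F] [Fintype F] [AddCommGroup V] [Module F V] [FiniteDimensional F V] [Fintype V]
  {B : LinearMap.BilinForm F V}

theorem noArc (F M : Type*) [Field F] [Fintype F] [AddCommGroup M] [Module F M] [FiniteDimensional F M] : NoArc F M :=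
  fun h1 h2 S h3 h4 h5 b h6 h7 h8 T h9 h10 h11 => H184.Arc.no_arc h1 h2 S h3 h4 h5 b h6 h7 h8 T h9 h10 h11

/-- a totally isotropic plane through a point -/
theorem exists_plane (hB : SForm B) {k : ℕ} (hk : 3 ≤ k) (hV : finrank F V = 2 * k) {p : V} (hp : p ≠ 0) :
    ∃ M : Submodule F V, finrank F M = 3 ∧ TI B M ∧ p ∈ M := by
  have key : ∀ C : Submodule F V, TI B C → finrank F C < k → ∃ v, v ∉ C ∧ v ∈ perp B C := by
    intro C _ hCk
    by_contra hcon
    push Not at hcon
    have h1 : perp B C ≤ C := by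
      intro v hv
      by_contra h
      exact hcon v h hv
    have h2 := Submodule.finrank_mono h1
    have h3 := finrank_perp hB C
    omega
  have ext : ∀ C : Submodule F V, TI B C → finrank F C < k → ∃ C' : Submodule F V, C ≤ C' ∧ TI B C' ∧
      finrank F C' = finrank F C + 1 := by
    intro C hC hCk
    obtain ⟨v, hv, hvC⟩ := key C hC hCk
    refine ⟨C ⊔ Submodule.span F {v}, le_sup_left, ?_, ?_⟩
    · intro x hx y hy
      obtain ⟨a, ha, b, hb, rfl⟩ := Submodule.mem_sup.1 hx
      obtain ⟨c, hc, d, hd, rfl⟩ := Submodule.mem_sup.1 hy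
      obtain ⟨s, rfl⟩ := Submodule.mem_span_singleton.1 hb
      obtain ⟨t, rfl⟩ := Submodule.mem_span_singleton.1 hd
      simp only [map_add, map_smul, LinearMap.add_apply, LinearMap.smul_apply, hC a ha c hc, hvC c hc,
        hB.swap_zero (hvC a ha), hB.self, smul_zero, add_zero]
    · have h1 : v ≠ 0 := by rintro rfl; exact hv C.zero_mem
      have h2 := Submodule.finrank_sup_add_finrank_inf_eq C (Submodule.span F {v})
      have h3 : C ⊓ Submodule.span F {v} = ⊥ := by
        rw [eq_bot_iff]
        rintro x ⟨hx, hx'⟩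
        obtain ⟨t, rfl⟩ := Submodule.mem_span_singleton.1 hx'
        by_cases ht : t = 0
        · rw [ht, zero_smul]; exact Submodule.zero_mem _
        · exfalso
          apply hv
          have := C.smul_mem t⁻¹ hx
          rwa [smul_smul, inv_mul_cancel₀ ht, one_smul] at this
      rw [h3, finrank_bot, finrank_span_singleton h1] at h2
      omega
  have h0 : TI B (Submodule.span F {p}) := by
    intro x hx y hy
    obtain ⟨s, rfl⟩ := Submodule.mem_span_singleton.1 hx
    obtain ⟨t, rfl⟩ := Submodule.mem_span_singleton.1 hy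
    simp [hB.self]
  have h1 := finrank_span_singleton (K := F) hp
  obtain ⟨C₁, h2, h3, h4⟩ := ext _ h0 (by omega)
  obtain ⟨C₂, h5, h6, h7⟩ := ext C₁ h3 (by omega)
  exact ⟨C₂, by omega, h6, h5 (h2 (Submodule.mem_span_singleton_self p))⟩

theorem not_zb {K : Subgroup (Iso B)} {O : Set V} (hB : SForm B) (hO : Orb K O) (hA : AffP K O)
    (hq : Odd (Fintype.card F)) {k : ℕ} (hk : 3 ≤ k) (hV : finrank F V = 2 * k) {b : ℕ} (hZ : ZB B O b) : False := by
  obtain ⟨β, rfl, h1, h2⟩ := exists_beta hO (by omega) hB hZ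
  have h20 : (2 : F) ≠ 0 := by
    intro h
    obtain ⟨n, hn⟩ := hq
    have h3 : (Fintype.card F : F) = 0 := Nat.cast_card_eq_zero F
    rw [hn] at h3
    push_cast at h3
    rw [h, zero_mul, zero_add] at h3
    exact one_ne_zero h3
  rcases Nat.lt_or_ge 1 β with h3 | h3
  · rcases Nat.lt_or_ge β (Fintype.card F) with h4 | h4
    · obtain ⟨p, hp⟩ := hO.ne
      obtain ⟨M, hM, hTI, hpM⟩ := exists_plane hB hk hV (fun e => hO.zero (e ▸ hp) : p ≠ 0)
      exact not_zero_mid hB hO hq hA hZ h3 h4 hM hTI ⟨p, hpM, hp⟩ (noArc F M)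
    · have : β = Fintype.card F := le_antisymm h2 h4
      subst this
      exact not_zero_q hB hO h20 hk hV hZ
  · have : β = 1 := le_antisymm h3 h1
    subst this
    rw [one_mul] at hZ
    exact not_zero_one hB hO hk hV hZ

/-- **The stabiliser does not have exactly two orbits on points.** -/
theorem not_two_orbits (hB : SForm B) (hq : Odd (Fintype.card F)) {k : ℕ} (hk : 3 ≤ k) (hV : finrank F V = 2 * k)
    {X : Type*} [Fintype X] [MulAction (Iso B) X] [MulAction.IsPretransitive (Iso B) X] (x₀ : X) {r : X → ℝ}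
    (h3 : Nat.card (MulAction.orbitRel.Quotient (MulAction.stabilizer (Iso B) x₀) X) ≤ 3) (hr : Orth B r)
    (hr0 : r ≠ 0) {O : Set V} (hO : Orb (MulAction.stabilizer (Iso B) x₀) O) : False := by
  have hnt : Nontrivial V := by
    have : 0 < finrank F V := by omega
    exact (Module.finrank_pos_iff (R := F)).1 this
  have hA : AffP (MulAction.stabilizer (Iso B) x₀) O := fun j f hf hfl => aff x₀ hB h3 hO hr hr0 hf hfl
  have hA' : AffP (MulAction.stabilizer (Iso B) x₀) (co O) := fun j f hf hfl => aff x₀ hB h3 (Orb.co hO) hr hr0 hf hfl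
  obtain ⟨b, hb | hb⟩ := exists_zero_b hB hO hA (by omega)
  · exact not_zb hB hO hA hq hk hV hb
  · exact not_zb hB (Orb.co hO) hA' hq hk hV hb

end Cfsg.Agent.H91.ZeroB
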