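import Cfsg.Agent.H91.PspDich
import Cfsg.Agent.H91.TwoOrb
import Cfsg.Agent.H91.HerCons

/-!
# Primitive rank three actions of `PSp`, odd characteristic (helper91)

`psp_main` : the number of points, from the action form of Hering's theorem (`HerAct`).
-/

set_option autoImplicit false
set_option linter.unusedSectionVars false

namespace Cfsg.Agent.H91.PspMain

open Cfsg Symp Cfsg.Agent.H91.Flag FlagFun ZeroB Lines HerCons PspDich Module RankThree
open Cfsg.Agent.TitsThree Cfsg.Agent.TitsThree.SpIdent Cfsg.Agent.H667.HerFin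

universe u

variable {k : ℕ} {F : Type u} [Field F] [Fintype F]

variable (k F) in
/-- Hering's theorem, action form, for the subgroups of the symplectic group -/
def HerAct : Prop :=
  ∀ K : Subgroup (Iso (sB k F)), (∀ v w, v ≠ 0 → w ≠ 0 → ∃ g ∈ K, ∃ c : F, g.1 v = c • w) →
    ConclTwo (Fintype.card F) (2 * k) (PH K) ∨ NatOut F (Fintype.card F) (2 * k) (PH K) ∨
      Small (Fintype.card F) (2 * k) (PH K)

theorem herAct_of_main (main : Main.{u}) (h6 : AltSix.{u}) (h7 : AltSeven.{u}) (h13 : Thirteen.{u}) (hk : 1 ≤ k) :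
    HerAct k F := by
  intro K hK
  refine action_of_main main h6 h7 h13 (K := F) _ _ rfl (finrank_std k F) (by omega) (PH K) ?_ ?_ ?_
  · rintro h hh v w
    obtain ⟨g, -, e⟩ := mem_PH.1 hh
    rw [e, e, e, map_add]
  · rintro h hh
    obtain ⟨g, -, e⟩ := mem_PH.1 hh
    exact ⟨RingEquiv.refl F, fun c v => by rw [e, e, map_smul]; rfl⟩
  · intro v w hv hw
    obtain ⟨g, hg, c, e⟩ := hK v w hv hw
    exact ⟨MulAction.toPermHom (Iso (sB k F)) _ g, ⟨g, hg, rfl⟩, c, e⟩

theorem card_iso : Nat.card (Iso (sB k F)) = Nat.card (Matrix.symplecticGroup (Fin k) F) := by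
  rw [← isos_eq]
  exact Nat.card_congr (Equiv.ofBijective toSp ⟨toSp_injective, toSp_surjective⟩)

section

variable {X : Type*} [Fintype X] [MulAction (Iso (sB k F)) X] [MulAction.IsPretransitive (Iso (sB k F)) X] (x₀ : X)

theorem order_bound (h3 : Nat.card (MulAction.orbitRel.Quotient (MulAction.stabilizer (Iso (sB k F)) x₀) X) = 3) :
    Nat.card (Iso (sB k F)) ≤ 3 * (Nat.card (MulAction.stabilizer (Iso (sB k F)) x₀)) ^ 2 := by
  have hfin : Finite ((Fin k ⊕ Fin k → F) ≃ₗ[F] (Fin k ⊕ Fin k → F)) :=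
    Finite.of_injective (fun g : (Fin k ⊕ Fin k → F) ≃ₗ[F] (Fin k ⊕ Fin k → F) => (g : (Fin k ⊕ Fin k → F) → _))
      DFunLike.coe_injective
  set K := MulAction.stabilizer (Iso (sB k F)) x₀ with hK
  have h1 : Nat.card X ≤ Nat.card K * 3 := by
    rw [← h3, ← Nat.card_prod]
    have : Finite (MulAction.orbitRel.Quotient K X) := Quotient.finite _
    refine Nat.card_le_card_of_surjective
      (fun p : K × MulAction.orbitRel.Quotient K X => p.1 • (Quotient.out p.2 : X)) ?_
    intro x
    have h2 : x ∈ MulAction.orbit K (Quotient.out (Quotient.mk'' x : MulAction.orbitRel.Quotient K X)) :=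
      Quotient.exact' (Quotient.out_eq' (Quotient.mk'' x : MulAction.orbitRel.Quotient K X)).symm
    obtain ⟨g, hg⟩ := h2
    exact ⟨(g, Quotient.mk'' x), hg⟩
  have h4 := K.index_mul_card
  rw [hK, MulAction.index_stabilizer_of_transitive, ← hK] at h4
  rw [← h4]
  calc Nat.card X * Nat.card K ≤ (Nat.card K * 3) * Nat.card K := Nat.mul_le_mul_right _ h1
    _ = _ := by ring

theorem stab_ne_top (h3 : Nat.card (MulAction.orbitRel.Quotient (MulAction.stabilizer (Iso (sB k F)) x₀) X) = 3) :
    MulAction.stabilizer (Iso (sB k F)) x₀ ≠ ⊤ := by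
  intro h
  have hall : ∀ x : X, x = x₀ := by
    intro x
    obtain ⟨g, rfl⟩ := MulAction.exists_smul_eq (Iso (sB k F)) x₀ x
    have : g ∈ MulAction.stabilizer (Iso (sB k F)) x₀ := by rw [h]; trivial
    exact this
  have h1 : Nat.card (MulAction.orbitRel.Quotient (MulAction.stabilizer (Iso (sB k F)) x₀) X) ≤ 1 := by
    have : Subsingleton (MulAction.orbitRel.Quotient (MulAction.stabilizer (Iso (sB k F)) x₀) X) := by
      refine ⟨fun a b => ?_⟩
      rw [← Quotient.out_eq a, ← Quotient.out_eq b, hall a.out, hall b.out]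
    exact Finite.card_le_one_iff_subsingleton.2 this
  omega

/-- the case of a function `r` -/
theorem card_of_orth (hk : 3 ≤ k) (hq : Odd (Fintype.card F)) (her : HerAct k F)
    (h3 : Nat.card (MulAction.orbitRel.Quotient (MulAction.stabilizer (Iso (sB k F)) x₀) X) = 3)
    {r : X → ℝ} (hr0 : r ≠ 0) (hr : Orth (sB k F) r) :
    Fintype.card X * (Fintype.card F - 1) = Fintype.card F ^ (2 * k) - 1 := by
  classical
  have hB := sform_sB k F
  have hV := finrank_std k F
  have hnt : Nontrivial (Fin k ⊕ Fin k → F) := by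
    have : 0 < finrank F (Fin k ⊕ Fin k → F) := by omega
    exact (Module.finrank_pos_iff (R := F)).1 this
  set K := MulAction.stabilizer (Iso (sB k F)) x₀ with hK
  let R : (Fin k ⊕ Fin k → F) → (Fin k ⊕ Fin k → F) → Prop := fun v w => ∃ g ∈ K, ∃ c : F, g.1 v = c • w
  have hRsymm : ∀ v w, v ≠ 0 → R v w → R w v := by
    rintro v w hv ⟨g, hg, c, e⟩
    have hc : c ≠ 0 := by
      rintro rfl
      rw [zero_smul] at e
      exact hv ((LinearEquiv.map_eq_zero_iff g.1).1 e)
    refine ⟨g⁻¹, inv_mem hg, c⁻¹, ?_⟩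
    have h1 : g⁻¹ • (g • v) = v := inv_smul_smul g v
    have h2 : g • v = c • w := e
    rw [h2] at h1
    have h3 : g⁻¹ • (c • w) = c • (g⁻¹ • w) := map_smul g⁻¹.1 c w
    rw [h3] at h1
    change g⁻¹ • w = c⁻¹ • v
    rw [← h1, smul_smul, inv_mul_cancel₀ hc, one_smul]
  have hRtrans : ∀ u v w, R u v → R v w → R u w := by
    rintro u v w ⟨g, hg, c, e⟩ ⟨g', hg', c', e'⟩
    refine ⟨g' * g, mul_mem hg' hg, c * c', ?_⟩
    change g'.1 (g.1 u) = _
    rw [e, map_smul, e', smul_smul]
  by_cases hT : ∀ v w, v ≠ 0 → w ≠ 0 → R v w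
  · -- transitive on points
    exfalso
    have hKne := stab_ne_top x₀ h3
    have hord := order_bound x₀ h3
    rw [card_iso, ← hK] at hord
    have hlow := pow_le_card k F hk
    have hPH : Nat.card (PH K) = Nat.card K := by
      refine Nat.card_congr (K.equivMapOfInjective (MulAction.toPermHom (Iso (sB k F)) (Fin k ⊕ Fin k → F)) ?_).toEquiv.symm
      intro a b e
      apply Subtype.ext
      ext1 v
      exact congrArg (fun σ : Equiv.Perm (Fin k ⊕ Fin k → F) => σ v) e
    rcases her K hT with h | h | h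
    · have h1 := card_le_of_concl hq h hk
      rw [hPH] at h1
      omega
    · obtain ⟨L, hL⟩ := of_natOut hB hk hV hq hKne h
      exact not_three_lines x₀ hB h3.le hr hr0 L hL
    · have h1 := card_le_of_small hq h hk
      rw [hPH] at h1
      omega
  · push Not at hT
    obtain ⟨v, w, hv, hw, hvw⟩ := hT
    by_cases h2 : ∀ u, u ≠ 0 → R u v ∨ R u w
    · -- two orbits
      exfalso
      let O : Set (Fin k ⊕ Fin k → F) := {u | u ≠ 0 ∧ R u v}
      have hwO : w ∉ O := fun h => hvw (hRsymm w v hw h.2)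
      have hO : Orb K O :=
        { inv := by
            intro g hg u
            have h0 : g • u ≠ 0 ↔ u ≠ 0 := not_iff_not.2 (LinearEquiv.map_eq_zero_iff g.1)
            have hR : R u (g • u) := ⟨g, hg, 1, (one_smul F _).symm⟩
            have hR' : R (g • u) u := ⟨g⁻¹, inv_mem hg, 1, by
              rw [one_smul]
              exact inv_smul_smul g u⟩
            exact ⟨fun h => ⟨h0.1 h.1, hRtrans _ _ _ hR h.2⟩, fun h => ⟨h0.2 h.1, hRtrans _ _ _ hR' h.2⟩⟩
          smul := by
            intro c hc u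
            have hR : R u (c • u) := ⟨1, one_mem K, c⁻¹, by
              rw [smul_smul, inv_mul_cancel₀ hc, one_smul]; rfl⟩
            have hR' : R (c • u) u := ⟨1, one_mem K, c, rfl⟩
            exact ⟨fun h => ⟨(smul_ne_zero_iff.1 h.1).2, hRtrans _ _ _ hR h.2⟩,
              fun h => ⟨smul_ne_zero hc h.1, hRtrans _ _ _ hR' h.2⟩⟩
          zero := fun h => h.1 rfl
          ne := ⟨v, hv, 1, one_mem K, 1, (one_smul F _).symm⟩
          ne' := ⟨w, hw, hwO⟩
          tr := fun a ha b hb => hRtrans _ _ _ ha.2 (hRsymm b v hb.1 hb.2)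
          tr' := by
            intro a ha haO b hb hbO
            have ha' : R a w := (h2 a ha).resolve_left fun h => haO ⟨ha, h⟩
            have hb' : R b w := (h2 b hb).resolve_left fun h => hbO ⟨hb, h⟩
            exact hRtrans _ _ _ ha' (hRsymm b w hb hb') }
      exact not_two_orbits hB hq hk hV x₀ h3.le hr hr0 hO
    · push Not at h2
      obtain ⟨u, hu, huv, huw⟩ := h2
      refine PointOrb.card_of_three hB hV x₀ h3.le (v := ![v, w, u]) ?_ ?_
      · intro i
        fin_cases i
        · exact hv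
        · exact hw
        · exact hu
      · have h4 : ¬ R w v := fun h => hvw (hRsymm w v hw h)
        have h5 : ¬ R v u := fun h => huv (hRsymm v u hv h)
        have h6 : ¬ R w u := fun h => huw (hRsymm w u hw h)
        intro i j h
        fin_cases i <;> fin_cases j
        · rfl
        · exact absurd h hvw
        · exact absurd h h5
        · exact absurd h h4
        · rfl
        · exact absurd h h6
        · exact absurd h huv
        · exact absurd h huw
        · rfl

end

/-- **Primitive rank three actions of `PSp_{2k}(q)`, `k ≥ 3`, `q` odd.** -/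
theorem psp_main (hk : 3 ≤ k) (hq : Odd (Fintype.card F)) (her : HerAct k F) {X : Type*} [Fintype X]
    [MulAction (PSp k F) X] [MulAction.IsPreprimitive (PSp k F) X] (x₀ : X)
    (h3 : Nat.card (MulAction.orbitRel.Quotient (MulAction.stabilizer (PSp k F) x₀) X) = 3) :
    Fintype.card X * (Fintype.card F - 1) = Fintype.card F ^ (2 * k) - 1 := by
  classical
  let _ : MulAction (Iso (sB k F)) X := MulAction.compHom X (pi k F)
  have hc : ∀ (g : Iso (sB k F)) (x : X), g • x = pi k F g • x := fun _ _ => rfl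
  have htr := pretransitive hc
  have h3' : Nat.card (MulAction.orbitRel.Quotient (MulAction.stabilizer (Iso (sB k F)) x₀) X) = 3 := by
    rw [← h3]
    refine Nat.card_congr (Quotient.congr (Equiv.refl X) fun a b => ?_)
    change a ∈ MulAction.orbit _ b ↔ a ∈ MulAction.orbit _ b
    constructor
    · rintro ⟨⟨g, hg⟩, rfl⟩
      exact ⟨⟨pi k F g, (stab_iff hc x₀ g).1 hg⟩, rfl⟩
    · rintro ⟨⟨g, hg⟩, rfl⟩
      obtain ⟨g', rfl⟩ := pi_surjective g
      exact ⟨⟨g', (stab_iff hc x₀ g').2 hg⟩, rfl⟩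
  obtain ⟨p, hp⟩ := CharP.exists F
  have hpp : Fact p.Prime := ⟨CharP.char_is_prime F p⟩
  have hF : 2 < Fintype.card F := by
    have h1 : 1 < Fintype.card F := Fintype.one_lt_card
    obtain ⟨n, hn⟩ := hq
    omega
  obtain ⟨D, hgen, hE, hU, hfix⟩ := H415.SpFlag.exists_dat (m := k) (by omega) hF (p := p)
  by_cases hG : H249.Pair.Gen (PSp k F) (Ω := X) D.B
  · have : Nonempty X := ⟨x₀⟩
    have hfin : Finite ((Fin k ⊕ Fin k → F) ≃ₗ[F] (Fin k ⊕ Fin k → F)) :=
      Finite.of_injective (fun g : (Fin k ⊕ Fin k → F) ≃ₗ[F] (Fin k ⊕ Fin k → F) => (g : (Fin k ⊕ Fin k → F) → _))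
        DFunLike.coe_injective
    have : Finite (PSp k F) := Finite.of_surjective _ (pi_surjective (k := k) (F := F))
    obtain ⟨x, hx⟩ := H249.exists_fixed D hG hgen hE
    exact card_of_fixed hc hk hq x₀ h3' hU hx
  · obtain ⟨r, hr0, hr⟩ := exists_orth hc D hfix hG
    exact card_of_orth x₀ hk hq her h3' hr0 hr

end Cfsg.Agent.H91.PspMain
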