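import Cfsg.Agent.H91.ZeroQ

/-!
# `(0, b)`-sets, the planes (helper91)
-/

set_option autoImplicit false
set_option linter.unusedSectionVars false

namespace Cfsg.Agent.H91.ZeroB

open Symp Cfsg.Agent.H91.Flag FlagFun Module

variable {F V : Type*} [Field F] [Fintype F] [AddCommGroup V] [Module F V] [FiniteDimensional F V] [Fintype V]
  {B : LinearMap.BilinForm F V}

section

variable {K : Subgroup (Iso B)} {O : Set V} (hB : SForm B) (hO : Orb K O)

include hO in
/-- the intersection numbers are divisible by `q - 1` -/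
theorem dvd_nn (L : Submodule F V) : (Fintype.card F - 1) ∣ nn O L := by
  classical
  let S : Type _ := {v : V // v ∈ (L : Set V) ∩ O}
  let act : MulAction Fˣ S :=
    { smul := fun c v => ⟨(c : F) • v.1, L.smul_mem _ v.2.1, (hO.smul _ c.ne_zero _).2 v.2.2⟩
      one_smul := fun v => Subtype.ext (one_smul F v.1)
      mul_smul := fun a b v => Subtype.ext (by
        change ((a * b : Fˣ) : F) • v.1 = (a : F) • (b : F) • v.1
        rw [Units.val_mul, mul_smul]) }
  have : Fintype (MulAction.orbitRel.Quotient Fˣ S) := Fintype.ofFinite _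
  have h1 := MulAction.sum_card_fixedBy_eq_card_orbits_mul_card_group Fˣ S
  have h2 : ∀ c : Fˣ, Fintype.card (MulAction.fixedBy S c) = if c = 1 then Fintype.card S else 0 := by
    intro c
    split_ifs with hc
    · subst hc
      refine Fintype.card_congr (Equiv.subtypeUnivEquiv fun v => ?_)
      exact one_smul Fˣ v
    · rw [Fintype.card_eq_zero_iff]
      refine ⟨fun v => ?_⟩
      obtain ⟨v, hv⟩ := v
      have h3 : (c : F) • v.1 = v.1 := congrArg Subtype.val (show c • v = v from hv)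
      apply hc
      have h4 : ((c : F) - 1) • v.1 = 0 := by rw [sub_smul, one_smul, h3, sub_self]
      have hv0 : v.1 ≠ 0 := fun e => hO.zero (e ▸ v.2.2)
      exact Units.ext (sub_eq_zero.1 ((smul_eq_zero.1 h4).resolve_right hv0))
  simp only [h2] at h1
  rw [Finset.sum_ite_eq' Finset.univ (1 : Fˣ) (fun _ => Fintype.card S), if_pos (Finset.mem_univ _)] at h1
  have h5 : nn O L = Fintype.card S := by
    unfold nn
    rw [← Nat.card_coe_set_eq, Nat.card_eq_fintype_card]
  rw [h5, h1, Fintype.card_units]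
  exact Dvd.intro_left _ rfl

include hO in
theorem exists_beta {b : ℕ} (hV : 3 ≤ finrank F V) (hB : SForm B) (hZ : ZB B O b) :
    ∃ β, b = β * (Fintype.card F - 1) ∧ 1 ≤ β ∧ β ≤ Fintype.card F := by
  obtain ⟨x, y, hx, hy0, hy, hxy⟩ := exists_mixed hB hO hV
  have hli := li_of_mem_of_notMem hO hx hy0 hy
  have h1 : nn O (Submodule.span F {x, y}) = b := by
    rcases hZ.line _ (finrank_span_pair hli) (ti_span_pair hB hxy) with h | h
    · exfalso
      have := nn_pos (L := Submodule.span F {x, y}) (Submodule.subset_span (Or.inl rfl)) hx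
      omega
    · exact h
  obtain ⟨β, hβ⟩ := dvd_nn hO (Submodule.span F {x, y})
  rw [h1, mul_comm] at hβ
  refine ⟨β, hβ, ?_, ?_⟩
  · rcases Nat.eq_zero_or_pos β with h | h
    · rw [h, zero_mul] at hβ
      have := hZ.pos
      omega
    · exact h
  · have h2 := hZ.lt
    rw [hβ] at h2
    have hq : 1 < Fintype.card F := Fintype.one_lt_card
    have h3 : Fintype.card F ^ 2 - 1 = (Fintype.card F + 1) * (Fintype.card F - 1) := by
      obtain ⟨t, ht⟩ : ∃ t, Fintype.card F = t + 1 := ⟨Fintype.card F - 1, by omega⟩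
      rw [ht, Nat.add_sub_cancel]
      have : (t + 1) ^ 2 = (t + 1 + 1) * t + 1 := by ring
      omega
    rw [h3] at h2
    have := lt_of_mul_lt_mul_right h2 (Nat.zero_le _)
    omega

open Classical in
include hB hO in
/-- the number of vectors of `O` in a plane -/
theorem plane_count {b : ℕ} (hZ : ZB B O b) {M : Submodule F V} (hM : finrank F M = 3) (hTI : TI B M) {p : V}
    (hp : p ∈ O) (hpM : p ∈ M) :
    (nn O M - (Fintype.card F - 1)) * (Fintype.card F ^ 2 - Fintype.card F) =
      (Fintype.card F ^ 3 - Fintype.card F) * (b - (Fintype.card F - 1)) := by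
  classical
  have hp0 : p ≠ 0 := fun e => hO.zero (e ▸ hp)
  let P : Submodule F V := Submodule.span F {p}
  have hPM : P ≤ M := (Submodule.span_singleton_le_iff_mem p M).2 hpM
  let A : Finset V := Finset.univ.filter fun w => w ∈ M ∧ w ∉ P
  let S : Finset V := Finset.univ.filter fun v => (v ∈ M ∧ v ∈ O) ∧ v ∉ P
  have hli : ∀ w, w ∉ P → LinearIndependent F ![p, w] := by
    intro w hw
    rw [LinearIndependent.pair_iff' hp0]
    intro a e
    exact hw (Submodule.mem_span_singleton.2 ⟨a, e⟩)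
  have hcard : ∀ (C : Submodule F V) (Q : V → Prop) [DecidablePred Q],
      ((Finset.univ : Finset V).filter fun v => (v ∈ C ∧ Q v) ∧ v ∉ P).card + (((P ⊓ C : Submodule F V) : Set V) ∩ {v | Q v}).ncard =
        ((C : Set V) ∩ {v | Q v}).ncard := by
    intro C Q _
    have h1 : ((Finset.univ.filter fun v : V => (v ∈ C ∧ Q v) ∧ v ∉ P : Finset V) : Set V) =
        ((C : Set V) ∩ {v | Q v}) \ (((P ⊓ C : Submodule F V) : Set V) ∩ {v | Q v}) := by
      ext v
      simp only [Finset.coe_filter, Finset.mem_univ, true_and, Set.mem_ofPred_eq, Set.mem_sdiff, Set.mem_inter_iff,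
        SetLike.mem_coe, Submodule.mem_inf]
      tauto
    rw [← Set.ncard_coe_finset, h1]
    refine Set.ncard_sdiff_add_ncard_of_subset ?_
    rintro v ⟨h2, h3⟩
    exact ⟨(Submodule.mem_inf.1 h2).2, h3⟩
  -- exchange
  have h2 : ∀ w ∈ A, (S.filter fun v => v ∈ Submodule.span F {p, w}).card = b - (Fintype.card F - 1) := by
    intro w hw
    rw [Finset.mem_filter] at hw
    have hL := finrank_span_pair (hli w hw.2.2)
    have hLM : Submodule.span F {p, w} ≤ M := by
      rw [Submodule.span_le]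
      rintro z (rfl | rfl)
      · exact hpM
      · exact hw.2.1
    have h3 := hcard (Submodule.span F {p, w}) (· ∈ O)
    have h4 : nn O (Submodule.span F {p, w}) = b := by
      rcases hZ.line _ hL (fun x hx y hy => hTI x (hLM hx) y (hLM hy)) with h | h
      · exfalso
        have := nn_pos (L := Submodule.span F {p, w}) (Submodule.subset_span (Or.inl rfl)) hp
        omega
      · exact h
    have h5 : P ⊓ Submodule.span F {p, w} = P := inf_eq_left.2 (span_le_left p w)
    rw [h5] at h3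
    have h6 := nn_span_of_mem hO hp
    unfold nn at h4 h6
    have h7 : (((P : Submodule F V) : Set V) ∩ {v | v ∈ O}).ncard = Fintype.card F - 1 := h6
    have h8 : (((Submodule.span F {p, w} : Submodule F V) : Set V) ∩ {v | v ∈ O}).ncard = b := h4
    rw [h7, h8] at h3
    have h9 : (S.filter fun v => v ∈ Submodule.span F {p, w}) =
        Finset.univ.filter fun v => (v ∈ Submodule.span F {p, w} ∧ v ∈ O) ∧ v ∉ P := by
      ext v
      simp only [S, Finset.mem_filter, Finset.mem_univ, true_and]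
      constructor
      · rintro ⟨⟨⟨h10, h11⟩, h12⟩, h13⟩
        exact ⟨⟨h13, h11⟩, h12⟩
      · rintro ⟨⟨h10, h11⟩, h12⟩
        exact ⟨⟨⟨hLM h10, h11⟩, h12⟩, h10⟩
    rw [h9]
    omega
  have hspan : ∀ v w, v ∉ P → w ∉ P → (v ∈ Submodule.span F {p, w} ↔ w ∈ Submodule.span F {p, v}) := by
    have h3 : ∀ v w, v ∉ P → v ∈ Submodule.span F {p, w} → w ∈ Submodule.span F {p, v} := by
      intro v w hv h4
      obtain ⟨a, c, e⟩ := Submodule.mem_span_pair.1 h4
      have hc : c ≠ 0 := by
        rintro rfl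
        rw [zero_smul, add_zero] at e
        exact hv (Submodule.mem_span_singleton.2 ⟨a, e⟩)
      rw [Submodule.mem_span_pair]
      refine ⟨-(c⁻¹ * a), c⁻¹, ?_⟩
      rw [← e, smul_add, smul_smul, smul_smul, inv_mul_cancel₀ hc]
      module
    exact fun v w hv hw => ⟨h3 v w hv, h3 w v hw⟩
  have h3 : ∀ v ∈ S, (A.filter fun w => v ∈ Submodule.span F {p, w}).card = Fintype.card F ^ 2 - Fintype.card F := by
    intro v hv
    simp only [S, Finset.mem_filter, Finset.mem_univ, true_and] at hv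
    have h4 : (A.filter fun w => v ∈ Submodule.span F {p, w}) =
        Finset.univ.filter fun w => (w ∈ Submodule.span F {p, v} ∧ True) ∧ w ∉ P := by
      ext w
      simp only [A, Finset.mem_filter, Finset.mem_univ, true_and, and_true]
      constructor
      · rintro ⟨⟨h5, h6⟩, h7⟩
        exact ⟨(hspan v w hv.2 h6).1 h7, h6⟩
      · rintro ⟨h5, h6⟩
        refine ⟨⟨?_, h6⟩, (hspan v w hv.2 h6).2 h5⟩
        have hLM : Submodule.span F {p, v} ≤ M := by
          rw [Submodule.span_le]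
          rintro z (rfl | rfl)
          · exact hpM
          · exact hv.1.1
        exact hLM h5
    have h5 := hcard (Submodule.span F {p, v}) (fun _ => True)
    have h6 : P ⊓ Submodule.span F {p, v} = P := inf_eq_left.2 (span_le_left p v)
    rw [h6] at h5
    have h7 : ∀ C : Submodule F V, ((C : Set V) ∩ {_v | True}).ncard = Fintype.card F ^ finrank F C := by
      intro C
      rw [Set.ofPred_true, Set.inter_univ, ncard_sub]
    rw [h7, h7, finrank_span_pair (hli v hv.2), finrank_span_singleton hp0, pow_one] at h5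
    rw [h4]
    omega
  have h4 : A.card = Fintype.card F ^ 3 - Fintype.card F := by
    have h5 := hcard M (fun _ => True)
    have h6 : P ⊓ M = P := inf_eq_left.2 hPM
    rw [h6] at h5
    have h7 : ∀ C : Submodule F V, ((C : Set V) ∩ {_v | True}).ncard = Fintype.card F ^ finrank F C := by
      intro C
      rw [Set.ofPred_true, Set.inter_univ, ncard_sub]
    rw [h7, h7, hM, finrank_span_singleton hp0, pow_one] at h5
    have h8 : A = Finset.univ.filter fun v => (v ∈ M ∧ True) ∧ v ∉ P := by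
      ext w
      simp only [A, Finset.mem_filter, Finset.mem_univ, true_and, and_true]
    rw [h8]
    omega
  have h5 : S.card = nn O M - (Fintype.card F - 1) := by
    have h5 := hcard M (· ∈ O)
    have h6 : P ⊓ M = P := inf_eq_left.2 hPM
    rw [h6] at h5
    have h7 := nn_span_of_mem hO hp
    unfold nn at h7 ⊢
    have h8 : (((P : Submodule F V) : Set V) ∩ {v | v ∈ O}).ncard = Fintype.card F - 1 := h7
    rw [h8] at h5
    have h9 : (S.card : ℕ) = (Finset.univ.filter fun v => (v ∈ M ∧ v ∈ O) ∧ v ∉ P).card := by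
      congr 1
    change S.card = ((M : Set V) ∩ {v | v ∈ O}).ncard - _
    rw [h9]
    omega
  have h6 : ∑ w ∈ A, (S.filter fun v => v ∈ Submodule.span F {p, w}).card =
      ∑ v ∈ S, (A.filter fun w => v ∈ Submodule.span F {p, w}).card := by
    simp only [Finset.card_filter]
    exact Finset.sum_comm
  rw [Finset.sum_congr rfl h2, Finset.sum_congr rfl h3, Finset.sum_const, Finset.sum_const, smul_eq_mul, smul_eq_mul,
    h4, h5] at h6
  exact h6.symm

theorem flag_smul {j : ℕ} (g : Iso B) (u : Fin j → V) (i : ℕ) :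
    (W F u i).map (g.1 : V →ₗ[F] V) = W F (g • u) i := (W_smul g u i).symm

include hB hO in
/-- **`K` is transitive on the flags with first member in `O`.** -/
theorem trans3 {b : ℕ} (hA : AffP K O) (hZ : ZB B O b) {u u' : Fin 3 → V} (hu : Frame B u) (hu' : Frame B u')
    (h0 : u 0 ∈ O) (h0' : u' 0 ∈ O) : ∃ g ∈ K, ∀ i, (W F u i).map (g.1 : V →ₗ[F] V) = W F u' i := by
  classical
  let f : (Fin 3 → V) → ℝ := fun w => if ∃ g ∈ K, ∀ i, (W F w i).map (g.1 : V →ₗ[F] V) = W F u' i then 1 else 0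
  obtain ⟨a, α, h⟩ := hA 3 f (by
    intro g hg w
    have h1 : (∃ g' ∈ K, ∀ i, (W F (g • w) i).map (g'.1 : V →ₗ[F] V) = W F u' i) ↔
        ∃ g' ∈ K, ∀ i, (W F w i).map (g'.1 : V →ₗ[F] V) = W F u' i := by
      constructor
      · rintro ⟨g', hg', h2⟩
        refine ⟨g' * g, mul_mem hg' hg, fun i => ?_⟩
        rw [← h2 i, flag_smul, flag_smul, mul_smul]
      · rintro ⟨g', hg', h2⟩
        refine ⟨g' * g⁻¹, mul_mem hg' (inv_mem hg), fun i => ?_⟩
        rw [← h2 i, flag_smul, flag_smul, mul_smul, inv_smul_smul]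
    simp only [f, h1]) (by
    intro w w' _ _ hW
    simp only [f, hW])
  have hW0 : ∀ w : Fin 3 → V, ((W F w 0 : Set V) ∩ O).ncard = 0 := by
    intro w
    rw [W_zero, Set.ncard_eq_zero (Set.toFinite _)]
    ext v
    constructor
    · rintro ⟨h3, h4⟩
      rw [(Submodule.mem_bot F).1 h3] at h4
      exact absurd h4 hO.zero
    · exact fun h => h.elim
  have hW1 : ∀ w : Fin 3 → V, Frame B w → w 0 ∈ O → ((W F w 1 : Set V) ∩ O).ncard = Fintype.card F - 1 := by
    intro w _ hw0
    have h2 : W F w 1 = Submodule.span F {w 0} := by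
      unfold W
      congr 1
      ext v
      constructor
      · rintro ⟨l, hl, rfl⟩
        have : l = 0 := Fin.ext (by have : (l : ℕ) < 1 := hl; change (l : ℕ) = 0; omega)
        rw [this]; rfl
      · intro hv
        rw [Set.mem_singleton_iff.1 hv]
        exact ⟨0, Nat.zero_lt_one, rfl⟩
    rw [h2]
    exact nn_span_of_mem hO hw0
  have hTI : ∀ w : Fin 3 → V, Frame B w → ∀ i, TI B (W F w i) := by
    intro w hw i x hx y hy
    have h2 : W F w i ≤ Submodule.span F (Set.range w) := by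
      rw [← W_of_le w (le_max_right i 3)]
      exact W_mono w (le_max_left _ _)
    exact Flag.Frame.mem_span_ti hB hw (h2 hx) (h2 hy)
  have hmem : ∀ w : Fin 3 → V, ∀ i, 0 < i → w 0 ∈ W F w i := fun w i hi => mem_W w hi
  have hW2 : ∀ w : Fin 3 → V, Frame B w → w 0 ∈ O → ((W F w 2 : Set V) ∩ O).ncard = b := by
    intro w hw hw0
    rcases hZ.line (W F w 2) (finrank_W hw.li (by omega)) (hTI w hw 2) with h2 | h2
    · exfalso
      have := nn_pos (hmem w 2 (by omega)) hw0
      omega
    · exact h2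
  have hq1 : 1 < Fintype.card F := Fintype.one_lt_card
  have hW3 : ∀ w w' : Fin 3 → V, Frame B w → Frame B w' → w 0 ∈ O → w' 0 ∈ O →
      ((W F w 3 : Set V) ∩ O).ncard = ((W F w' 3 : Set V) ∩ O).ncard := by
    intro w w' hw hw' hw0 hw0'
    have h2 := plane_count hB hO hZ (finrank_W hw.li le_rfl) (hTI w hw 3) hw0 (hmem w 3 (by omega))
    have h3 := plane_count hB hO hZ (finrank_W hw'.li le_rfl) (hTI w' hw' 3) hw0' (hmem w' 3 (by omega))
    have h4 := h2.trans h3.symm
    have h5 : 0 < Fintype.card F ^ 2 - Fintype.card F := by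
      have : Fintype.card F * 1 < Fintype.card F * Fintype.card F := Nat.mul_lt_mul_of_pos_left hq1 (by omega)
      rw [pow_two]
      omega
    have h6 := Nat.eq_of_mul_eq_mul_right h5 h4
    have h7 : ∀ w : Fin 3 → V, Frame B w → w 0 ∈ O → Fintype.card F - 1 ≤ nn O (W F w 3) := by
      intro w hw hw0
      rw [← hW1 w hw hw0]
      exact Set.ncard_le_ncard (Set.inter_subset_inter_left _ (W_mono w (by omega)))
    have h8 := h7 w hw hw0
    have h9 := h7 w' hw' hw0'
    change nn O (W F w 3) = nn O (W F w' 3)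
    omega
  have h1 : f u = f u' := by
    rw [h u hu, h u' hu']
    simp only [Finset.sum_range_succ, Finset.sum_range_zero, hW0, hW1 u hu h0, hW1 u' hu' h0', hW2 u hu h0,
      hW2 u' hu' h0', hW3 u u' hu hu' h0 h0']
  have h2 : f u' = 1 := by
    refine if_pos ⟨1, one_mem K, fun i => ?_⟩
    rw [flag_smul, one_smul]
  rw [h2] at h1
  by_contra hcon
  have h3 : f u = 0 := if_neg hcon
  rw [h3] at h1
  exact zero_ne_one h1

/-! ### restriction to a plane -/

theorem exists_restrict (g : Iso B) {M : Submodule F V} (h : M.map (g.1 : V →ₗ[F] V) = M) :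
    ∃ t : M ≃ₗ[F] M, ∀ v : M, ((t v : M) : V) = g • (v : V) :=
  ⟨LinearEquiv.ofSubmodules g.1 M M h, fun _ => rfl⟩

/-- the group induced on a subspace -/
def TM (K : Subgroup (Iso B)) (M : Submodule F V) : Subgroup (M ≃ₗ[F] M) where
  carrier := {t | ∃ g ∈ K, ∀ v : M, ((t v : M) : V) = g • (v : V)}
  one_mem' := ⟨1, one_mem K, fun v => (one_smul _ _).symm⟩
  mul_mem' := by
    rintro s t ⟨g, hg, h⟩ ⟨g', hg', h'⟩
    refine ⟨g * g', mul_mem hg hg', fun v => ?_⟩
    rw [LinearEquiv.mul_apply, h, h', mul_smul]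
  inv_mem' := by
    rintro t ⟨g, hg, h⟩
    refine ⟨g⁻¹, inv_mem hg, fun v => ?_⟩
    have h1 := h (t⁻¹ v)
    rw [← LinearEquiv.mul_apply, mul_inv_cancel] at h1
    rw [eq_inv_smul_iff]
    exact h1.symm

theorem mem_TM {M : Submodule F V} {t : M ≃ₗ[F] M} : t ∈ TM K M ↔ ∃ g ∈ K, ∀ v : M, ((t v : M) : V) = g • (v : V) :=
  Iff.rfl

theorem exists_frame3 {M L : Submodule F V} (hM : finrank F M = 3) (hTI : TI B M) (hL : finrank F L = 2) (hLM : L ≤ M)
    {s : V} (hs : s ∈ L) (hs0 : s ≠ 0) :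
    ∃ u : Fin 3 → V, Frame B u ∧ u 0 = s ∧ W F u 1 = Submodule.span F {s} ∧ W F u 2 = L ∧ W F u 3 = M := by
  obtain ⟨y, hy, hli, hsp⟩ := exists_span_pair hL hs hs0
  obtain ⟨z, hz, hzL⟩ : ∃ z ∈ M, z ∉ L := by
    by_contra hcon
    push Not at hcon
    have := Submodule.finrank_mono (show M ≤ L from hcon)
    omega
  let u : Fin 3 → V := ![s, y, z]
  have hW2 : W F u 2 = L := by
    rw [← hsp]
    unfold W
    congr 1
    ext v
    constructor
    · rintro ⟨l, hl, rfl⟩
      have h1 : (l : ℕ) < 2 := hl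
      have h2 : l = 0 ∨ l = 1 := by
        rcases l with ⟨l, hl⟩
        have : l = 0 ∨ l = 1 := by
          change l < 2 at h1
          omega
        rcases this with rfl | rfl
        · exact Or.inl rfl
        · exact Or.inr rfl
      rcases h2 with rfl | rfl
      · exact Or.inl rfl
      · exact Or.inr rfl
    · rintro (rfl | rfl)
      · exact ⟨0, show (0 : ℕ) < 2 by omega, rfl⟩
      · exact ⟨1, show (1 : ℕ) < 2 by omega, rfl⟩
  have hW1 : W F u 1 = Submodule.span F {s} := by
    unfold W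
    congr 1
    ext v
    constructor
    · rintro ⟨l, hl, rfl⟩
      have : l = 0 := Fin.ext (by have : (l : ℕ) < 1 := hl; change (l : ℕ) = 0; omega)
      rw [this]; rfl
    · intro hv
      rw [Set.mem_singleton_iff.1 hv]
      exact ⟨0, Nat.zero_lt_one, rfl⟩
  have hle : Submodule.span F (Set.range u) ≤ M := by
    rw [Submodule.span_le]
    rintro _ ⟨l, rfl⟩
    fin_cases l
    · exact hLM hs
    · exact hLM hy
    · exact hz
  have hlt : L < Submodule.span F (Set.range u) := by
    refine lt_of_le_of_ne ?_ ?_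
    · rw [← hW2, ← W_of_le u le_rfl]
      exact W_mono u (by omega)
    · intro e
      apply hzL
      rw [e]
      exact Submodule.subset_span ⟨2, rfl⟩
  have h1 := Submodule.finrank_lt_finrank_of_lt hlt
  have h2 := Submodule.finrank_mono hle
  have hli3 : LinearIndependent F u := by
    rw [linearIndependent_iff_card_eq_finrank_span, Fintype.card_fin, Set.finrank]
    omega
  have hW3 : W F u 3 = M := by
    rw [W_of_le u le_rfl]
    exact Submodule.eq_of_le_of_finrank_eq hle (by omega)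
  refine ⟨u, ⟨hli3, fun i l => ?_⟩, rfl, hW1, hW2, hW3⟩
  exact hTI _ (hle (Submodule.subset_span ⟨i, rfl⟩)) _ (hle (Submodule.subset_span ⟨l, rfl⟩))

theorem ncard_map (M : Submodule F V) (L : Submodule F M) (O : Set V) :
    ((L : Set M) ∩ {v : M | (v : V) ∈ O}).ncard = nn O (L.map M.subtype) := by
  unfold nn
  rw [← Set.ncard_image_of_injective _ (Subtype.val_injective)]
  congr 1
  ext v
  constructor
  · rintro ⟨w, ⟨h1, h2⟩, rfl⟩
    exact ⟨⟨w, h1, rfl⟩, h2⟩
  · rintro ⟨⟨w, h1, rfl⟩, h2⟩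
    exact ⟨w, ⟨h1, h2⟩, rfl⟩

theorem finrank_map_subtype (M : Submodule F V) (L : Submodule F M) : finrank F (L.map M.subtype) = finrank F L :=
  Submodule.finrank_map_subtype_eq M L

theorem map_le_sub (M : Submodule F V) (L : Submodule F M) : L.map M.subtype ≤ M := by
  rintro _ ⟨w, -, rfl⟩
  exact w.2

theorem map_restrict {M : Submodule F V} {g : Iso B} {t : M ≃ₗ[F] M} (ht : ∀ v : M, ((t v : M) : V) = g • (v : V))
    {L L' : Submodule F M} (h : (L.map M.subtype).map (g.1 : V →ₗ[F] V) = L'.map M.subtype) :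
    L.map (t : M →ₗ[F] M) = L' := by
  apply Submodule.map_injective_of_injective (Submodule.subtype_injective M)
  rw [← h]
  ext v
  constructor
  · rintro ⟨_, ⟨w, hw, rfl⟩, rfl⟩
    exact ⟨_, ⟨w, hw, rfl⟩, (ht w).symm⟩
  · rintro ⟨_, ⟨w, hw, rfl⟩, rfl⟩
    exact ⟨_, ⟨w, hw, rfl⟩, ht w⟩

/-- the statement of the planar lemma -/
def NoArc (F M : Type*) [Field F] [Fintype F] [AddCommGroup M] [Module F M] : Prop :=
  ∀ (_ : Module.finrank F M = 3) (_ : Odd (Fintype.card F)) (S : Set M) (_ : (0 : M) ∉ S)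
    (_ : ∀ c : F, c ≠ 0 → ∀ v ∈ S, c • v ∈ S) (_ : S.Nonempty) (b : ℕ) (_ : 1 < b) (_ : b < Fintype.card F)
    (_ : ∀ L : Submodule F M, Module.finrank F L = 2 →
      ((L : Set M) ∩ S).ncard = 0 ∨ ((L : Set M) ∩ S).ncard = b * (Fintype.card F - 1))
    (T : Subgroup (M ≃ₗ[F] M)) (_ : ∀ t ∈ T, ∀ v, t v ∈ S ↔ v ∈ S)
    (_ : ∀ s ∈ S, ∀ L L' : Submodule F M, Module.finrank F L = 2 → Module.finrank F L' = 2 → s ∈ L → s ∈ L' →
      ∃ t ∈ T, (∃ c : F, t s = c • s) ∧ L.map (t : M →ₗ[F] M) = L')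
    (_ : ∀ L : Submodule F M, Module.finrank F L = 2 → ∀ s ∈ S, ∀ s' ∈ S, s ∈ L → s' ∈ L →
      ∃ t ∈ T, L.map (t : M →ₗ[F] M) = L ∧ ∃ c : F, t s = c • s'), False

include hB hO in
/-- **`1 < β < q`** -/
theorem not_zero_mid (hq : Odd (Fintype.card F)) (hA : AffP K O) {β : ℕ} (hZ : ZB B O (β * (Fintype.card F - 1)))
    (h1 : 1 < β) (h2 : β < Fintype.card F) {M : Submodule F V} (hM : finrank F M = 3) (hTI : TI B M)
    (hMO : ∃ v ∈ M, v ∈ O) (harc : NoArc F M) : False := by
  obtain ⟨v₀, hv₀, hv₀O⟩ := hMO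
  have hne0 : ∀ v : M, (v : V) ∈ O → (v : V) ≠ 0 := fun v hv e => hO.zero (e ▸ hv)
  -- transitivity in the form of the planar lemma
  have key : ∀ (s s' : M) (L L' : Submodule F M), (s : V) ∈ O → (s' : V) ∈ O → finrank F L = 2 → finrank F L' = 2 →
      s ∈ L → s' ∈ L' → ∃ t ∈ TM K M, (∃ c : F, t s = c • s') ∧ L.map (t : M →ₗ[F] M) = L' := by
    intro s s' L L' hs hs' hL hL' hsL hsL'
    obtain ⟨u, hu, hu0, hu1, hu2, hu3⟩ := exists_frame3 hM hTI ((finrank_map_subtype M L).trans hL) (map_le_sub M L)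
      (s := (s : V)) ⟨s, hsL, rfl⟩ (hne0 s hs)
    obtain ⟨u', hu', hu0', hu1', hu2', hu3'⟩ := exists_frame3 hM hTI ((finrank_map_subtype M L').trans hL')
      (map_le_sub M L') (s := (s' : V)) ⟨s', hsL', rfl⟩ (hne0 s' hs')
    obtain ⟨g, hg, h⟩ := trans3 hB hO hA hZ hu hu' (hu0 ▸ hs) (hu0' ▸ hs')
    have h3 := h 3
    rw [hu3, hu3'] at h3
    obtain ⟨t, ht⟩ := exists_restrict g h3
    refine ⟨t, mem_TM.2 ⟨g, hg, ht⟩, ?_, ?_⟩
    · have h4 := h 1
      rw [hu1, hu1', Submodule.map_span, Set.image_singleton] at h4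
      have h5 : g • (s : V) ∈ Submodule.span F {(s' : V)} := by
        rw [← h4]
        exact Submodule.mem_span_singleton_self _
      obtain ⟨c, hc⟩ := Submodule.mem_span_singleton.1 h5
      refine ⟨c, Subtype.ext ?_⟩
      rw [ht, ← hc]
      rfl
    · have h4 := h 2
      rw [hu2, hu2'] at h4
      exact map_restrict ht h4
  refine harc hM hq {v : M | (v : V) ∈ O} hO.zero (fun c hc v hv => (hO.smul c hc (v : V)).2 hv) ⟨⟨v₀, hv₀⟩, hv₀O⟩ β h1 h2
    ?_ (TM K M) ?_ ?_ ?_
  · intro L hL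
    rw [ncard_map]
    exact hZ.line _ ((finrank_map_subtype M L).trans hL) fun x hx y hy => hTI x (map_le_sub M L hx) y (map_le_sub M L hy)
  · rintro t ⟨g, hg, ht⟩ v
    change ((t v : M) : V) ∈ O ↔ (v : V) ∈ O
    rw [ht, hO.inv g hg]
  · intro s hs L L' hL hL' hsL hsL'
    exact key s s L L' hs hs hL hL' hsL hsL'
  · intro L hL s hs s' hs' hsL hsL'
    obtain ⟨t, ht, hc, e⟩ := key s s' L L hs hs' hL hL hsL hsL'
    exact ⟨t, ht, e, hc⟩

end

end Cfsg.Agent.H91.ZeroB
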