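import Cfsg.Agent.H91.ZeroOne

/-!
# `(0, q)`-sets: the complement is a subspace (helper91)
-/

set_option autoImplicit false
set_option linter.unusedSectionVars false

namespace Cfsg.Agent.H91.ZeroB

open Symp Cfsg.Agent.H91.Flag FlagFun Module

variable {F V : Type*} [Field F] [Fintype F] [AddCommGroup V] [Module F V] [FiniteDimensional F V] [Fintype V]
  {B : LinearMap.BilinForm F V}

theorem exists_proj (hB : SForm B) {x y : V} (hxy : B x y = 1) (v : V) :
    ∃ w, B w x = 0 ∧ B w y = 0 ∧ ∀ z, B z x = 0 → B z y = 0 → B w z = B v z := by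
  have hyx : B y x = -1 := by rw [hB.swap, hxy]
  refine ⟨v - B v y • x + B v x • y, ?_, ?_, ?_⟩
  · simp only [map_add, map_sub, map_smul, LinearMap.add_apply, LinearMap.sub_apply, LinearMap.smul_apply, smul_eq_mul,
      hB.self, hyx]
    ring
  · simp only [map_add, map_sub, map_smul, LinearMap.add_apply, LinearMap.sub_apply, LinearMap.smul_apply, smul_eq_mul,
      hB.self, hxy]
    ring
  · intro z h1 h2
    simp only [map_add, map_sub, map_smul, LinearMap.add_apply, LinearMap.sub_apply, LinearMap.smul_apply, smul_eq_mul,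
      hB.swap_zero h1, hB.swap_zero h2]
    ring

theorem exists_one (hB : SForm B) {e : V} (he : e ≠ 0) : ∃ v, B e v = 1 := by
  obtain ⟨v, hv⟩ := hB.exists_ne he
  exact ⟨(B e v)⁻¹ • v, by rw [map_smul, smul_eq_mul, inv_mul_cancel₀ hv]⟩

theorem exists_partner (hB : SForm B) {x y e : V} (hxy : B x y = 1) (he : e ≠ 0) (h1 : B e x = 0) (h2 : B e y = 0) :
    ∃ w, B e w = 1 ∧ B w x = 0 ∧ B w y = 0 := by
  obtain ⟨v, hv⟩ := exists_one hB he
  obtain ⟨w, hw1, hw2, hw3⟩ := exists_proj hB hxy v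
  exact ⟨w, by rw [hB.swap, hw3 e h1 h2, ← hB.swap, hv], hw1, hw2⟩

theorem exists_partner2 (hB : SForm B) {x y h f e : V} (hxy : B x y = 1) (hhf : B h f = 1) (hhx : B h x = 0)
    (hhy : B h y = 0) (hfx : B f x = 0) (hfy : B f y = 0) (he : e ≠ 0) (h1 : B e x = 0) (h2 : B e y = 0)
    (h3 : B e h = 0) (h4 : B e f = 0) :
    ∃ w, B e w = 1 ∧ B w x = 0 ∧ B w y = 0 ∧ B w h = 0 ∧ B w f = 0 := by
  obtain ⟨v, hv, hvx, hvy⟩ := exists_partner hB hxy he h1 h2
  obtain ⟨w, hw1, hw2, hw3⟩ := exists_proj hB hhf v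
  refine ⟨w, by rw [hB.swap, hw3 e h3 h4, ← hB.swap, hv], ?_, ?_, hw1, hw2⟩
  · rw [hw3 x (hB.swap_zero hhx) (hB.swap_zero hfx), hvx]
  · rw [hw3 y (hB.swap_zero hhy) (hB.swap_zero hfy), hvy]

theorem exists_perp4 (hV : 5 ≤ finrank F V) (a b c d : V) :
    ∃ z, z ≠ 0 ∧ B a z = 0 ∧ B b z = 0 ∧ B c z = 0 ∧ B d z = 0 := by
  let f : V →ₗ[F] (F × F) × (F × F) := ((B a).prod (B b)).prod ((B c).prod (B d))
  have h1 := LinearMap.finrank_range_add_finrank_ker f
  have h2 : finrank F (LinearMap.range f) ≤ 4 := by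
    refine (Submodule.finrank_le _).trans ?_
    rw [finrank_prod, finrank_prod, finrank_self]
  have h3 : 0 < finrank F (LinearMap.ker f) := by omega
  obtain ⟨⟨z, hz⟩, hz0⟩ := (Module.finrank_pos_iff_exists_ne_zero (R := F)).1 h3
  have h4 : ((B a z, B b z), (B c z, B d z)) = (((0 : F), (0 : F)), ((0 : F), (0 : F))) := LinearMap.mem_ker.1 hz
  simp only [Prod.mk.injEq] at h4
  exact ⟨z, fun e => hz0 (Subtype.ext e), h4.1.1, h4.1.2, h4.2.1, h4.2.2⟩

theorem span_le_left (x y : V) : Submodule.span F {x} ≤ Submodule.span F {x, y} :=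
  Submodule.span_mono (Set.singleton_subset_iff.2 (Or.inl rfl))

theorem span_le_right (x y : V) : Submodule.span F {y} ≤ Submodule.span F {x, y} :=
  Submodule.span_mono (Set.singleton_subset_iff.2 (Or.inr rfl))

section

variable {K : Subgroup (Iso B)} {O : Set V} (hB : SForm B) (hO : Orb K O)

include hO in
theorem smul_notMem (c : F) {v : V} (hv : v ∉ O) : c • v ∉ O := by
  by_cases hc : c = 0
  · rw [hc, zero_smul]; exact hO.zero
  · exact fun h => hv ((hO.smul c hc v).1 h)

include hO in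
/-- every totally isotropic line has a point outside `O` -/
theorem exists_notMem {b : ℕ} (hZ : ZB B O b) {L : Submodule F V} (hL : finrank F L = 2) (hTI : TI B L) :
    ∃ h ∈ L, h ≠ 0 ∧ h ∉ O := by
  by_contra hcon
  push Not at hcon
  have h1 := nn_eq_of_subset hL hcon hO.zero
  have h2 := hZ.lt
  have h3 := hZ.pos
  rcases hZ.line L hL hTI with h | h <;> omega

include hB hO in
/-- the complement of `O` is closed under sums of orthogonal vectors -/
theorem add_notMem (hZ : ZB B O (Fintype.card F * (Fintype.card F - 1))) {x y : V} (hx : x ∉ O) (hy : y ∉ O)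
    (hxy : B x y = 0) : x + y ∉ O := by
  intro hcon
  by_cases hx0 : x = 0
  · rw [hx0, zero_add] at hcon; exact hy hcon
  by_cases hli : LinearIndependent F ![x, y]
  swap
  · rw [LinearIndependent.pair_iff' hx0] at hli
    push Not at hli
    obtain ⟨a, rfl⟩ := hli
    have h1 : x + a • x = (1 + a) • x := by rw [add_smul, one_smul]
    rw [h1] at hcon
    exact smul_notMem hO _ hx hcon
  have hy0 : y ≠ 0 := by
    rintro rfl
    rw [add_zero] at hcon
    exact hx hcon
  have hL := finrank_span_pair hli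
  have hxL : x ∈ Submodule.span F {x, y} := Submodule.subset_span (Or.inl rfl)
  have hyL : y ∈ Submodule.span F {x, y} := Submodule.subset_span (Or.inr rfl)
  have h1 : nn O (Submodule.span F {x, y}) = Fintype.card F * (Fintype.card F - 1) := by
    rcases hZ.line _ hL (ti_span_pair hB hxy) with h2 | h2
    · exfalso
      have := nn_pos (L := Submodule.span F {x, y}) (Submodule.add_mem _ hxL hyL) hcon
      omega
    · exact h2
  -- the union of the two points
  have h2 : ((Submodule.span F {x, y} : Submodule F V) : Set V) ∩ O ⊆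
      ((Submodule.span F {x, y} : Submodule F V) : Set V) \
        (((Submodule.span F {x} : Submodule F V) : Set V) ∪ (((Submodule.span F {y} : Submodule F V) : Set V) \ {0})) := by
    rintro v ⟨h3, h4⟩
    refine ⟨h3, ?_⟩
    rintro (h5 | ⟨h5, -⟩)
    · obtain ⟨a, rfl⟩ := Submodule.mem_span_singleton.1 h5
      exact smul_notMem hO _ hx h4
    · obtain ⟨a, rfl⟩ := Submodule.mem_span_singleton.1 h5
      exact smul_notMem hO _ hy h4
  have h3 := Set.ncard_le_ncard h2 (Set.toFinite _)
  rw [Set.ncard_sdiff (Set.union_subset ?_ (Set.sdiff_subset.trans ?_)), Set.ncard_union_eq,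
    Set.ncard_sdiff_singleton_of_mem (show (0 : V) ∈ ((Submodule.span F {y} : Submodule F V) : Set V) from
      Submodule.zero_mem _), ncard_sub, ncard_sub, ncard_sub, hL, finrank_span_singleton hx0,
    finrank_span_singleton hy0, pow_one] at h3
  · unfold nn at h1
    rw [h1] at h3
    have hq : 1 < Fintype.card F := Fintype.one_lt_card
    obtain ⟨t, ht⟩ : ∃ t, Fintype.card F = t + 2 := ⟨Fintype.card F - 2, by omega⟩
    rw [ht] at h3
    have h4 : (t + 2) * (t + 2 - 1) + (t + 2 + (t + 2 - 1)) ≤ (t + 2) ^ 2 := by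
      have h5 : t + 2 + (t + 2 - 1) ≤ (t + 2) ^ 2 := by
        rw [show t + 2 - 1 = t + 1 by omega]
        nlinarith
      omega
    rw [show t + 2 - 1 = t + 1 by omega] at h4
    nlinarith
  · rw [Set.disjoint_left]
    rintro v h4 ⟨h5, h6⟩
    obtain ⟨a, rfl⟩ := Submodule.mem_span_singleton.1 h4
    obtain ⟨b, hb⟩ := Submodule.mem_span_singleton.1 h5
    rw [LinearIndependent.pair_iff] at hli
    have := hli a (-b) (by rw [neg_smul, hb, add_neg_cancel])
    rw [this.1, zero_smul] at h6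
    exact h6 rfl
  · exact fun v hv => span_le_left x y hv
  · exact fun v hv => span_le_right x y hv

include hB hO in
/-- the main trick -/
theorem trick (h2 : (2 : F) ≠ 0) (hZ : ZB B O (Fintype.card F * (Fintype.card F - 1))) {e₁ f₁ e₂ f₂ : V}
    (he₁ : e₁ ∉ O) (hf₁ : f₁ ∉ O) (he₂ : e₂ ∉ O) (hf₂ : f₂ ∉ O) (h11 : B e₁ f₁ = 1) (h22 : B e₂ f₂ = 1)
    (hee : B e₂ e₁ = 0) (hef : B e₂ f₁ = 0) (hfe : B f₂ e₁ = 0) (hff : B f₂ f₁ = 0) (c : F) : e₁ + c • f₁ ∉ O := by
  have hee' := hB.swap_zero hee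
  have hef' := hB.swap_zero hef
  have hfe' := hB.swap_zero hfe
  have hff' := hB.swap_zero hff
  have h11' : B f₁ e₁ = -1 := by rw [hB.swap, h11]
  have h22' : B f₂ e₂ = -1 := by rw [hB.swap, h22]
  have key : ∀ s t : F, s * t = -1 → (e₁ + s • e₂) + c • (f₁ + t • f₂) ∉ O := by
    intro s t hst
    refine add_notMem hB hO hZ (add_notMem hB hO hZ he₁ (smul_notMem hO s he₂) ?_)
      (smul_notMem hO c (add_notMem hB hO hZ hf₁ (smul_notMem hO t hf₂) ?_)) ?_
    · rw [map_smul, hee', smul_zero]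
    · rw [map_smul, hff', smul_zero]
    · simp only [map_add, map_smul, LinearMap.add_apply, LinearMap.smul_apply, smul_eq_mul, h11, h22, hef, hfe']
      linear_combination c * hst
  have h3 := add_notMem hB hO hZ (key 1 (-1) (by ring)) (key (-1) 1 (by ring)) (by
    simp only [map_add, map_smul, LinearMap.add_apply, LinearMap.smul_apply, smul_eq_mul, h11, h22, h11', h22', hef, hfe',
      hee, hee', hef', hfe, hff, hff', hB.self]
    ring)
  intro hcon
  apply h3
  have h4 : (e₁ + (1 : F) • e₂) + c • (f₁ + (-1 : F) • f₂) + ((e₁ + (-1 : F) • e₂) + c • (f₁ + (1 : F) • f₂)) =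
      (2 : F) • (e₁ + c • f₁) := by
    module
  rw [h4]
  exact (hO.smul _ h2 _).2 hcon

include hB hO in
/-- a nonorthogonal pair outside `O` in the orthogonal space of a hyperbolic pair -/
theorem exists_pair {k : ℕ} (hk : 3 ≤ k) (hV : finrank F V = 2 * k)
    (hZ : ZB B O (Fintype.card F * (Fintype.card F - 1))) {x y : V} (hxy : B x y = 1) :
    ∃ e f, e ∉ O ∧ f ∉ O ∧ B e f = 1 ∧ B e x = 0 ∧ B e y = 0 ∧ B f x = 0 ∧ B f y = 0 := by
  -- a totally isotropic line in the orthogonal space
  obtain ⟨a, ha0, hxa, hya⟩ := exists_perp (B := B) (by omega) x y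
  obtain ⟨b, hab, hbx, hby⟩ := exists_partner hB hxy ha0 (hB.swap_zero hxa) (hB.swap_zero hya)
  obtain ⟨c, hc0, hxc, hyc, hac, hbc⟩ := exists_perp4 (B := B) (by omega) x y a b
  have hlac : LinearIndependent F ![a, c] := by
    rw [LinearIndependent.pair_iff' ha0]
    rintro t rfl
    rw [map_smul, smul_eq_mul, hB.swap, hab] at hbc
    have : t = 0 := by linear_combination -hbc
    rw [this, zero_smul] at hc0
    exact hc0 rfl
  obtain ⟨h, hh, hh0, hhO⟩ := exists_notMem hO hZ (finrank_span_pair hlac) (ti_span_pair hB hac)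
  obtain ⟨s, t, rfl⟩ := Submodule.mem_span_pair.1 hh
  set h := s • a + t • c with hh'
  have hhx : B h x = 0 := by
    rw [hh', map_add, LinearMap.add_apply, map_smul, map_smul, LinearMap.smul_apply, LinearMap.smul_apply,
      hB.swap_zero hxa, hB.swap_zero hxc, smul_zero, smul_zero, add_zero]
  have hhy : B h y = 0 := by
    rw [hh', map_add, LinearMap.add_apply, map_smul, map_smul, LinearMap.smul_apply, LinearMap.smul_apply,
      hB.swap_zero hya, hB.swap_zero hyc, smul_zero, smul_zero, add_zero]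
  obtain ⟨f, hhf, hfx, hfy⟩ := exists_partner hB hxy hh0 hhx hhy
  obtain ⟨e, he0, hxe, hye, hhe, hfe⟩ := exists_perp4 (B := B) (by omega) x y h f
  obtain ⟨e', hee', he'x, he'y, he'h, he'f⟩ := exists_partner2 hB hxy hhf hhx hhy hfx hfy he0 (hB.swap_zero hxe)
    (hB.swap_zero hye) (hB.swap_zero hhe) (hB.swap_zero hfe)
  have hf0 : f ≠ 0 := by rintro rfl; rw [map_zero] at hhf; exact zero_ne_one hhf
  have key : ∀ w, w ≠ 0 → B w x = 0 → B w y = 0 → B w h = 0 → B w f = 0 →
      (∃ e f, e ∉ O ∧ f ∉ O ∧ B e f = 1 ∧ B e x = 0 ∧ B e y = 0 ∧ B f x = 0 ∧ B f y = 0) ∨ w ∉ O := by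
    intro w hw0 hwx hwy hwh hwf
    have hli : LinearIndependent F ![f, w] := by
      rw [LinearIndependent.pair_iff' hf0]
      rintro t rfl
      rw [map_smul, LinearMap.smul_apply, smul_eq_mul, hB.swap, hhf] at hwh
      have : t = 0 := by linear_combination -hwh
      rw [this, zero_smul] at hw0
      exact hw0 rfl
    obtain ⟨z, hz, hz0, hzO⟩ := exists_notMem hO hZ (finrank_span_pair hli) (ti_span_pair hB (hB.swap_zero hwf))
    obtain ⟨α, β, rfl⟩ := Submodule.mem_span_pair.1 hz
    by_cases hα : α = 0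
    · right
      intro hwO
      rw [hα, zero_smul, zero_add] at hzO hz0
      have hβ : β ≠ 0 := by rintro rfl; exact hz0 (zero_smul _ _)
      exact hzO ((hO.smul β hβ w).2 hwO)
    · left
      refine ⟨h, α⁻¹ • (α • f + β • w), hhO, smul_notMem hO _ hzO, ?_, hhx, hhy, ?_, ?_⟩
      · rw [map_smul, map_add, map_smul, map_smul, hhf, hB.swap_zero hwh, smul_zero, add_zero, smul_eq_mul, smul_eq_mul,
          mul_one, inv_mul_cancel₀ hα]
      · rw [map_smul, LinearMap.smul_apply, map_add, LinearMap.add_apply, map_smul, map_smul, LinearMap.smul_apply,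
          LinearMap.smul_apply, hfx, hwx, smul_zero, smul_zero, add_zero, smul_zero]
      · rw [map_smul, LinearMap.smul_apply, map_add, LinearMap.add_apply, map_smul, map_smul, LinearMap.smul_apply,
          LinearMap.smul_apply, hfy, hwy, smul_zero, smul_zero, add_zero, smul_zero]
  rcases key e he0 (hB.swap_zero hxe) (hB.swap_zero hye) (hB.swap_zero hhe) (hB.swap_zero hfe) with h1 | h1
  · exact h1
  have he'0 : e' ≠ 0 := by rintro rfl; rw [map_zero] at hee'; exact zero_ne_one hee'
  rcases key e' he'0 he'x he'y he'h he'f with h2 | h2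
  · exact h2
  exact ⟨e, e', h1, h2, hee', hB.swap_zero hxe, hB.swap_zero hye, he'x, he'y⟩

include hB hO in
theorem add_notMem' (h2 : (2 : F) ≠ 0) {k : ℕ} (hk : 3 ≤ k) (hV : finrank F V = 2 * k)
    (hZ : ZB B O (Fintype.card F * (Fintype.card F - 1))) {x y : V} (hx : x ∉ O) (hy : y ∉ O) : x + y ∉ O := by
  by_cases hxy : B x y = 0
  · exact add_notMem hB hO hZ hx hy hxy
  · have h1 : B x ((B x y)⁻¹ • y) = 1 := by rw [map_smul, smul_eq_mul, inv_mul_cancel₀ hxy]
    obtain ⟨e, f, he, hf, hef, hex, hey, hfx, hfy⟩ := exists_pair hB hO hk hV hZ h1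
    have h3 := trick hB hO h2 hZ hx (smul_notMem hO _ hy) he hf h1 hef hex hey hfx hfy (B x y)
    rwa [smul_smul, mul_inv_cancel₀ hxy, one_smul] at h3

include hB hO in
/-- **`(0, q)`-sets** -/
theorem not_zero_q (h2 : (2 : F) ≠ 0) {k : ℕ} (hk : 3 ≤ k) (hV : finrank F V = 2 * k)
    (hZ : ZB B O (Fintype.card F * (Fintype.card F - 1))) : False := by
  let W : Submodule F V :=
    { carrier := Oᶜ
      add_mem' := fun ha hb => add_notMem' hB hO h2 hk hV hZ ha hb
      zero_mem' := hO.zero
      smul_mem' := fun c _ h => smul_notMem hO c h }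
  have hW : ∀ v, v ∈ W ↔ v ∉ O := fun v => Iff.rfl
  have hKW : ∀ g ∈ K, ∀ v, g • v ∈ perp B W ↔ v ∈ perp B W := by
    intro g hg v
    constructor
    · intro h z hz
      have h3 : g • z ∈ W := by rw [hW, hO.inv g hg, ← hW]; exact hz
      have h4 := h (g • z) h3
      rwa [show B (g • v) (g • z) = B v z from g.2 v z] at h4
    · intro h z hz
      have h3 : g⁻¹ • z ∈ W := by rw [hW, hO.inv g⁻¹ (inv_mem hg), ← hW]; exact hz
      have h4 := h (g⁻¹ • z) h3
      rwa [← show B (g • v) (g • g⁻¹ • z) = B v (g⁻¹ • z) from g.2 v _, smul_inv_smul] at h4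
  have hWne : W ≠ ⊤ := by
    intro e
    obtain ⟨v, hv⟩ := hO.ne
    have : v ∈ W := by rw [e]; trivial
    exact (hW v).1 this hv
  obtain ⟨w₀, hw₀0, hw₀⟩ := hO.ne'
  have hfr := finrank_perp hB W
  have hperpne : perp B W ≠ ⊥ := by
    intro e
    rw [e, finrank_bot, zero_add] at hfr
    exact hWne (Submodule.eq_top_of_finrank_eq hfr)
  have htrans : ∀ v v' : V, v' ≠ 0 → v ∈ perp B W → v ≠ 0 → (∃ g ∈ K, ∃ c : F, g • v' = c • v) → v' ∈ perp B W := by
    rintro v v' _ hv _ ⟨g, hg, c, e⟩
    rw [← hKW g hg, e]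
    exact Submodule.smul_mem _ _ hv
  have h3 : perp B W ≤ W := by
    intro v hv
    by_contra hvW
    have hvO : v ∈ O := by
      by_contra h
      exact hvW ((hW v).2 h)
    have hv0 : v ≠ 0 := fun e => hO.zero (e ▸ hvO)
    have hall : ∀ v' ∈ O, v' ∈ perp B W := fun v' hv' =>
      htrans v v' (fun e => hO.zero (e ▸ hv')) hv hv0 (hO.tr v' hv' v hvO)
    have hallW : W ≤ perp B W := by
      intro w hw
      have h4 : v + w ∈ O := by
        by_contra h
        apply hvW
        have h5 := W.sub_mem ((hW _).2 h) hw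
        rwa [add_sub_cancel_right] at h5
      have h6 := (perp B W).sub_mem (hall _ h4) hv
      rwa [add_sub_cancel_left] at h6
    have htop : perp B W = ⊤ := by
      rw [eq_top_iff]
      intro u _
      by_cases hu : u ∈ O
      · exact hall u hu
      · exact hallW ((hW u).2 hu)
    rw [htop, finrank_top] at hfr
    have h7 : finrank F W = 0 := by omega
    rw [Submodule.finrank_eq_zero] at h7
    have h8 : w₀ ∈ W := hw₀
    rw [h7, Submodule.mem_bot] at h8
    exact hw₀0 h8
  obtain ⟨h, hh, hh0⟩ := Submodule.exists_mem_ne_zero_of_ne_bot hperpne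
  have h4 : W ≤ perp B W := by
    intro w hw
    by_cases hw0 : w = 0
    · rw [hw0]; exact Submodule.zero_mem _
    · exact htrans h w hw0 hh hh0 (hO.tr' w hw0 hw h hh0 (h3 hh))
  have h5 : perp B W = W := le_antisymm h3 h4
  rw [h5, hV] at hfr
  have hfrW : finrank F W = k := by omega
  obtain ⟨x, hx⟩ : ∃ x, x ∉ W := by
    by_contra hcon
    push Not at hcon
    exact hWne (eq_top_iff.2 fun v _ => hcon v)
  have hx0 : x ≠ 0 := by rintro rfl; exact hx W.zero_mem
  obtain ⟨y, hy, hyW⟩ : ∃ y, B x y = 0 ∧ y ∉ W ⊔ Submodule.span F {x} := by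
    by_contra hcon
    push Not at hcon
    have h6 : perp B (Submodule.span F {x}) ≤ W ⊔ Submodule.span F {x} := fun v hv =>
      hcon v (hB.swap_zero (hv x (Submodule.mem_span_singleton_self x)))
    have h7 := Submodule.finrank_mono h6
    have h8 := finrank_perp hB (Submodule.span F {x})
    have h9 := Submodule.finrank_add_le_finrank_add_finrank W (Submodule.span F {x})
    rw [finrank_span_singleton hx0] at h8 h9
    omega
  have hli : LinearIndependent F ![x, y] := by
    rw [LinearIndependent.pair_iff' hx0]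
    intro a e
    exact hyW (Submodule.mem_sup_right (Submodule.mem_span_singleton.2 ⟨a, e⟩))
  obtain ⟨z, hz, hz0, hzO⟩ := exists_notMem hO hZ (finrank_span_pair hli) (ti_span_pair hB hy)
  obtain ⟨α, β, rfl⟩ := Submodule.mem_span_pair.1 hz
  have hzW : α • x + β • y ∈ W := (hW _).2 hzO
  by_cases hβ : β = 0
  · rw [hβ, zero_smul, add_zero] at hzW hz0
    have hα : α ≠ 0 := by rintro rfl; exact hz0 (zero_smul _ _)
    apply hx
    have := W.smul_mem α⁻¹ hzW
    rwa [smul_smul, inv_mul_cancel₀ hα, one_smul] at this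
  · apply hyW
    have h6 : y = β⁻¹ • (α • x + β • y) + (-(β⁻¹ * α)) • x := by
      rw [smul_add, smul_smul, smul_smul, inv_mul_cancel₀ hβ]
      module
    rw [h6]
    exact Submodule.add_mem _ (Submodule.mem_sup_left (W.smul_mem _ hzW))
      (Submodule.mem_sup_right (Submodule.smul_mem _ _ (Submodule.mem_span_singleton_self x)))

end

end Cfsg.Agent.H91.ZeroB
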